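import Mathlib
import Cfsg.Prelude.Def_Solvable
import Cfsg.Agent.LocalCharP.Residual
import Cfsg.Agent.LocalP.Basic

/-!
Groups in which the non-subnormal biprimary subgroups have maximal normalisers.
-/

set_option autoImplicit false

namespace CfsgLib.MaxNorm

open Subgroup

variable {G : Type*} [Group G]

/-- The order has at most two prime divisors. -/
def Biprimary (H : Subgroup G) : Prop :=
  ∃ p q : ℕ, p.Prime ∧ q.Prime ∧ ∀ r : ℕ, r.Prime → r ∣ Nat.card H → r = p ∨ r = q

/-- Every non-subnormal biprimary subgroup has a maximal subgroup as normaliser. -/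
def MaxNormalizers (G : Type*) [Group G] : Prop :=
  ∀ H : Subgroup G, ¬ H.IsSubnormal → Biprimary H → IsCoatom (Subgroup.normalizer (H : Set G))

/-- No non-trivial solvable normal subgroup. -/
def NoSolvNormal (G : Type*) [Group G] : Prop :=
  ∀ N : Subgroup G, N.Normal → Group.IsSolvable N → N = ⊥

theorem biprimary_of_isPGroup [Finite G] {p : ℕ} (hp : p.Prime) {Q : Subgroup G} (hQ : IsPGroup p Q) :
    Biprimary Q := by
  haveI := Fact.mk hp
  obtain ⟨n, hn⟩ := IsPGroup.iff_card.mp hQ
  refine ⟨p, p, hp, hp, fun r hr hd => Or.inl ?_⟩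
  rw [hn] at hd
  exact (Nat.prime_dvd_prime_iff_eq hr hp).mp (hr.dvd_of_dvd_pow hd)

theorem biprimary_sup [Finite G] {p r : ℕ} (hp : p.Prime) (hr : r.Prime) {Q R : Subgroup G}
    (hQ : IsPGroup p Q) (hR : IsPGroup r R) (hn : R ≤ Subgroup.normalizer (Q : Set G)) :
    Biprimary (Q ⊔ R) := by
  haveI := Fact.mk hp
  haveI := Fact.mk hr
  refine ⟨p, r, hp, hr, fun s hs hd => ?_⟩
  obtain ⟨m, hm⟩ := IsPGroup.iff_card.mp hQ
  obtain ⟨n, hn'⟩ := IsPGroup.iff_card.mp hR
  have h1 : Nat.card (Q ⊔ R : Subgroup G) ∣ Nat.card Q * Nat.card R := by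
    have hle : Q ⊔ R ≤ Subgroup.normalizer (Q : Set G) := sup_le Subgroup.le_normalizer hn
    have h2 := Subgroup.card_mul_index (Q.subgroupOf (Q ⊔ R))
    rw [Nat.card_congr (Subgroup.subgroupOfEquivOfLe (le_sup_left : Q ≤ Q ⊔ R)).toEquiv] at h2
    rw [← h2]
    refine mul_dvd_mul_left _ ?_
    haveI : (Q.subgroupOf (Q ⊔ R)).Normal := Subgroup.normal_subgroupOf_of_le_normalizer hle
    let f : R →* (Q ⊔ R : Subgroup G) ⧸ Q.subgroupOf (Q ⊔ R) :=
      (QuotientGroup.mk' _).comp (Subgroup.inclusion le_sup_right)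
    have hf : Function.Surjective f := by
      intro x
      obtain ⟨⟨g, hg⟩, rfl⟩ := QuotientGroup.mk_surjective x
      have hg' : g ∈ ((Q ⊔ R : Subgroup G) : Set G) := hg
      rw [Subgroup.coe_mul_of_right_le_normalizer_left Q R hn] at hg'
      obtain ⟨a, ha, b, hb, rfl⟩ := Set.mem_mul.mp hg'
      refine ⟨⟨b, hb⟩, ?_⟩
      refine QuotientGroup.eq.mpr (Subgroup.mem_subgroupOf.mpr ?_)
      show b⁻¹ * (a * b) ∈ Q
      have := (Subgroup.mem_normalizer_iff.mp (inv_mem (hn hb)) a).mp ha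
      simpa [mul_assoc] using this
    exact Subgroup.card_dvd_of_surjective f hf
  rw [hm, hn'] at h1
  rcases hs.dvd_mul.mp (hd.trans h1) with h | h
  · exact Or.inl ((Nat.prime_dvd_prime_iff_eq hs hp).mp (hs.dvd_of_dvd_pow h))
  · exact Or.inr ((Nat.prime_dvd_prime_iff_eq hs hr).mp (hs.dvd_of_dvd_pow h))

theorem not_isSubnormal_pGroup [Finite G] (hR : NoSolvNormal G) {p : ℕ} (hp : p.Prime)
    {Q : Subgroup G} (hQ : IsPGroup p Q) (hne : Q ≠ ⊥) : ¬ Q.IsSubnormal := by
  haveI := Fact.mk hp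
  intro hs
  have hle : Q ≤ Cfsg.pCore p G := CfsgLib.LocalCharP.le_pCore_of_isSubnormal hs hQ
  have h1 : IsPGroup p (Cfsg.pCore p G) := CfsgLib.LocalP.isPGroup_pCore
  haveI := h1.isNilpotent
  exact hne (le_bot_iff.mp (hle.trans (hR _ inferInstance inferInstance).le))

theorem ne_top_normalizer [Finite G] {H : Subgroup G} (hH : ¬ H.IsSubnormal) :
    Subgroup.normalizer (H : Set G) ≠ ⊤ := fun h =>
  hH (Subgroup.normalizer_eq_top_iff.mp h).isSubnormal

/-- A maximal normaliser inside another proper normaliser is equal to it. -/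
theorem MaxNormalizers.normalizer_eq_of_le [Finite G] (h : MaxNormalizers G) {H Q : Subgroup G}
    (hH : ¬ H.IsSubnormal) (hHb : Biprimary H) (hQ : ¬ Q.IsSubnormal)
    (hle : Subgroup.normalizer (H : Set G) ≤ Subgroup.normalizer (Q : Set G)) :
    Subgroup.normalizer (H : Set G) = Subgroup.normalizer (Q : Set G) := by
  by_contra hne
  exact ne_top_normalizer hQ ((h H hH hHb).2 _ (lt_of_le_of_ne hle hne))

/-- A `p`-subgroup normal in a join with an `r`-group, `r ≠ p`, is characteristic in it. -/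
theorem normalizer_sup_le [Finite G] {p r : ℕ} [Fact p.Prime] [Fact r.Prime] (hpr : p ≠ r)
    {Q R : Subgroup G} (hQ : IsPGroup p Q) (hR : IsPGroup r R)
    (hn : R ≤ Subgroup.normalizer (Q : Set G)) :
    Subgroup.normalizer ((Q ⊔ R : Subgroup G) : Set G) ≤ Subgroup.normalizer (Q : Set G) := by
  have key : ∀ x ∈ Q ⊔ R, (∃ k : ℕ, x ^ p ^ k = 1) → x ∈ Q := by
    intro x hx ⟨k, hk⟩
    have hx' : x ∈ ((Q ⊔ R : Subgroup G) : Set G) := hx
    rw [Subgroup.coe_mul_of_right_le_normalizer_left Q R hn] at hx'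
    obtain ⟨a, ha, b, hb, rfl⟩ := Set.mem_mul.mp hx'
    have hind : ∀ n : ℕ, ∃ c ∈ Q, (a * b) ^ n = c * b ^ n := by
      intro n
      induction n with
      | zero => exact ⟨1, one_mem _, by simp⟩
      | succ n ih =>
        obtain ⟨c, hc, e⟩ := ih
        refine ⟨c * (b ^ n * a * (b ^ n)⁻¹), mul_mem hc
          ((Subgroup.mem_normalizer_iff.mp (pow_mem (hn hb) n) a).mp ha), ?_⟩
        rw [pow_succ, e, pow_succ]; group
    obtain ⟨c, hc, e⟩ := hind (p ^ k)
    rw [hk] at e
    have hbQ : b ^ p ^ k ∈ Q := by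
      rw [show b ^ p ^ k = c⁻¹ by exact eq_inv_of_mul_eq_one_right e.symm]; exact inv_mem hc
    have hb1 : b ^ p ^ k = 1 := (IsPGroup.disjoint_of_ne p r hpr Q R hQ hR).le_bot
      ⟨hbQ, pow_mem hb _⟩
    obtain ⟨j, hj⟩ := hR ⟨b, hb⟩
    have hj' : b ^ r ^ j = 1 := congrArg Subtype.val hj
    have : orderOf b ∣ Nat.gcd (p ^ k) (r ^ j) :=
      Nat.dvd_gcd (orderOf_dvd_of_pow_eq_one hb1) (orderOf_dvd_of_pow_eq_one hj')
    rw [Nat.Coprime.gcd_eq_one (Nat.Coprime.pow k j
      ((Nat.coprime_primes Fact.out Fact.out).mpr hpr)), Nat.dvd_one, orderOf_eq_one_iff] at this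
    rw [this, mul_one]
    exact ha
  have conj : ∀ g ∈ Subgroup.normalizer ((Q ⊔ R : Subgroup G) : Set G), ∀ a ∈ Q, g * a * g⁻¹ ∈ Q := by
    intro g hg a ha
    obtain ⟨k, hk⟩ := hQ ⟨a, ha⟩
    refine key _ ((Subgroup.mem_normalizer_iff.mp hg a).mp (Subgroup.mem_sup_left ha)) ⟨k, ?_⟩
    rw [conj_pow, show a ^ p ^ k = 1 from congrArg Subtype.val hk, mul_one, mul_inv_cancel]
  intro g hg
  refine Subgroup.mem_normalizer_iff.mpr fun a => ⟨conj g hg a, fun ha => ?_⟩
  have h := conj g⁻¹ (inv_mem hg) _ ha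
  simpa [mul_assoc] using h

/-- If `Q` is a non-subnormal `p`-group normalised by the `r`-group `R`, then `N(QR) = N(Q)`. -/
theorem MaxNormalizers.normalizer_sup [Finite G] (h : MaxNormalizers G) {p r : ℕ} [Fact p.Prime]
    [Fact r.Prime] (hpr : p ≠ r) {Q R : Subgroup G} (hQ : IsPGroup p Q) (hQs : ¬ Q.IsSubnormal)
    (hR : IsPGroup r R) (hn : R ≤ Subgroup.normalizer (Q : Set G)) :
    Subgroup.normalizer ((Q ⊔ R : Subgroup G) : Set G) = Subgroup.normalizer (Q : Set G) := by
  refine h.normalizer_eq_of_le (fun hs => hQs ?_) (biprimary_sup Fact.out Fact.out hQ hR hn) hQs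
    (normalizer_sup_le hpr hQ hR hn)
  exact Subgroup.IsSubnormal.step Q (Q ⊔ R) le_sup_left hs
    (Subgroup.normal_subgroupOf_of_le_normalizer (sup_le Subgroup.le_normalizer hn))

/-- A normal `p`-subgroup `Q` of `H` of index prime to `p` determines `N(H) ≤ N(Q)`; in particular a
subgroup generated by a cyclic group and an element normalising it. -/
theorem zpowers_le_normalizer_of_comm {x y : G} (h : x * y = y * x) :
    Subgroup.zpowers x ≤ Subgroup.normalizer ((Subgroup.zpowers y : Subgroup G) : Set G) := by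
  refine Subgroup.zpowers_le.mpr (Subgroup.mem_normalizer_iff.mpr fun z => ?_)
  constructor <;> intro hz <;> obtain ⟨i, hi⟩ := Subgroup.mem_zpowers_iff.mp hz <;>
    refine Subgroup.mem_zpowers_iff.mpr ⟨i, ?_⟩
  · rw [← hi, ((show Commute x y from h).zpow_right i).eq, mul_inv_cancel_right]
  · calc y ^ i = x⁻¹ * (x * y ^ i) := by group
      _ = x⁻¹ * (y ^ i * x) := by rw [((show Commute x y from h).zpow_right i).eq]
      _ = z := by rw [hi]; group

/-- The property passes to quotients. -/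
theorem MaxNormalizers.of_surjective [Finite G] (h : MaxNormalizers G) {H' : Type*} [Group H']
    (π : G →* H') (hπ : Function.Surjective π) : MaxNormalizers H' := by
  intro Hb hns hbi
  obtain ⟨H, hHm, hmin⟩ : ∃ H : Subgroup G, H.map π = Hb ∧
      ∀ K : Subgroup G, K ≤ H → K.map π = Hb → K = H := by
    obtain ⟨H, hH⟩ := (Set.toFinite {H : Subgroup G | H.map π = Hb}).exists_minimal
      ⟨Hb.comap π, Subgroup.map_comap_eq_self_of_surjective hπ Hb⟩
    exact ⟨H, hH.1, fun K hK hKm => le_antisymm hK (hH.2 hKm hK)⟩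
  have hsn : ¬ H.IsSubnormal := fun hs => hns (hHm ▸ hs.map hπ)
  obtain ⟨p, q, hp, hq, hpq⟩ := hbi
  have hb : Biprimary H := by
    refine ⟨p, q, hp, hq, fun r hr hd => hpq r hr ?_⟩
    by_contra hnd
    haveI := Fact.mk hr
    -- the kernel lies in the Frattini subgroup
    set N : Subgroup H := (π.comp H.subtype).ker with hN
    have hidx : N.index = Nat.card Hb := by
      rw [hN, Subgroup.index_ker, MonoidHom.range_comp, Subgroup.range_subtype, hHm]
    have hfr : N ≤ frattini H := by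
      simp only [frattini, Order.radical, le_iInf_iff]
      intro M hM
      by_contra hle
      have hsup : M ⊔ N = ⊤ := hM.2 _ (left_lt_sup.mpr hle)
      have h1 : (M.map H.subtype).map π = Hb := by
        have e : (⊤ : Subgroup H).map (π.comp H.subtype) = Hb := by
          rw [← Subgroup.map_map, ← MonoidHom.range_eq_map, Subgroup.range_subtype, hHm]
        rw [Subgroup.map_map, ← e, ← hsup, Subgroup.map_sup,
          (Subgroup.map_eq_bot_iff N).mpr le_rfl, sup_bot_eq]
      have h2 := hmin _ (Subgroup.map_subtype_le M) h1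
      refine hM.1 (Subgroup.map_injective H.subtype_injective ?_)
      rw [h2, ← MonoidHom.range_eq_map, Subgroup.range_subtype]
    -- a Sylow subgroup inside the nilpotent Frattini subgroup is normal
    let S : Sylow r H := default
    have hSN : (S : Subgroup H) ≤ N := by
      intro s hs
      obtain ⟨k, hk⟩ := S.2 ⟨s, hs⟩
      have h1 : orderOf (QuotientGroup.mk' N s) ∣ r ^ k := by
        refine orderOf_dvd_of_pow_eq_one ?_
        rw [← map_pow, show s ^ r ^ k = 1 from congrArg Subtype.val hk, map_one]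
      have h2 : orderOf (QuotientGroup.mk' N s) ∣ Nat.card Hb := hidx ▸ orderOf_dvd_natCard _
      have h3 := Nat.eq_one_of_dvd_coprimes
        (Nat.Coprime.pow_left k ((hr.coprime_iff_not_dvd).mpr hnd)) h1 h2
      rwa [orderOf_eq_one_iff, QuotientGroup.mk'_apply, QuotientGroup.eq_one_iff] at h3
    have hnil : Group.IsNilpotent (frattini H) := frattini_nilpotent
    have hSF : (S : Subgroup H) ≤ frattini H := hSN.trans hfr
    haveI hSn : (S : Subgroup H).Normal := by
      exact Subgroup.normalizer_eq_top_iff.mp (frattini_nongenerating (Sylow.normalizer_sup_eq_top' S hSF))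
    obtain ⟨K, hK⟩ := Subgroup.exists_right_complement'_of_coprime (N := (S : Subgroup H))
      S.card_coprime_index
    have hKtop : K = ⊤ := frattini_nongenerating (by
      refine eq_top_iff.mpr ?_
      rw [← hK.sup_eq_top, sup_comm]
      exact sup_le_sup_left hSF K)
    have hSb : (S : Subgroup H) = ⊥ := by
      have := hK.disjoint
      rw [hKtop, disjoint_top] at this
      exact this
    have := S.pow_dvd_card_of_pow_dvd_card (n := 1) (by simpa using hd)
    rw [show Nat.card S = 1 from Subgroup.card_eq_one.mpr hSb, pow_one, Nat.dvd_one] at this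
    exact hr.ne_one this
  have hco := h H hsn hb
  have hle : (Subgroup.normalizer (H : Set G)).map π ≤ Subgroup.normalizer (Hb : Set H') :=
    hHm ▸ Subgroup.le_normalizer_map π
  have hne : Subgroup.normalizer (Hb : Set H') ≠ ⊤ := fun e =>
    hns (Subgroup.normalizer_eq_top_iff.mp e).isSubnormal
  set N := Subgroup.normalizer (H : Set G)
  by_cases hk : π.ker ≤ N
  · have hN : N = (N.map π).comap π := by rw [Subgroup.comap_map_eq, sup_eq_left.mpr hk]
    have hle' : N ≤ (Subgroup.normalizer (Hb : Set H')).comap π := Subgroup.map_le_iff_le_comap.mp hle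
    refine ⟨hne, fun K hK => ?_⟩
    have hlt : N < K.comap π := lt_of_le_of_lt hle'
      ((Subgroup.comap_lt_comap_of_surjective hπ).mpr hK)
    rw [← Subgroup.map_comap_eq_self_of_surjective hπ K, hco.2 _ hlt,
      Subgroup.map_top_of_surjective π hπ]
  · exfalso
    have htop : N ⊔ π.ker = ⊤ := hco.2 _ (left_lt_sup.mpr hk)
    refine hne (eq_top_iff.mpr ?_)
    rw [← Subgroup.map_top_of_surjective π hπ, ← htop, Subgroup.map_sup,
      (Subgroup.map_eq_bot_iff _).mpr le_rfl, sup_bot_eq]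
    exact hle

end CfsgLib.MaxNorm
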