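import Mathlib
import Cfsg.Agent.MaxNorm.Basic
import Cfsg.Agent.SteinbergSL.PSL
import Cfsg.Agent.Frobenius.Zassenhaus.Main
import Cfsg.Agent.Classical.Linear.Card
import Cfsg.Agent.Classical.Linear.Simple
import Cfsg.Agent.S4211

/-!
Groups with maximal normalisers whose quotient by the solvable radical is `PSL(2,13)`:
they are `PSL(2,13)` or `SL(2,13)` times an abelian group of coprime order.
-/

set_option autoImplicit false

namespace CfsgLib.MaxNorm

open Subgroup

local notation "L13" => Matrix.ProjectiveSpecialLinearGroup (Fin 2) (ZMod 13)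
local notation "SL13" => Matrix.SpecialLinearGroup (Fin 2) (ZMod 13)

/-- A subgroup containing a Sylow subgroup for every prime is the whole group. -/
theorem eq_top_of_forall_sylow_le {H : Type*} [Group H] [Finite H] {K : Subgroup H}
    (h : ∀ r : ℕ, r.Prime → ∃ P : Sylow r H, (P : Subgroup H) ≤ K) : K = ⊤ := by
  rw [← Subgroup.index_eq_one]
  by_contra hne
  obtain ⟨r, hr, hd⟩ := Nat.exists_prime_and_dvd hne
  haveI := Fact.mk hr
  obtain ⟨P, hP⟩ := h r hr
  exact P.not_dvd_index (hd.trans (Subgroup.index_dvd_of_le hP))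

theorem eq_bot_or_top_of_isSubnormal {L : Type*} [Group L] [IsSimpleGroup L] {H : Subgroup L}
    (h : H.IsSubnormal) : H = ⊥ ∨ H = ⊤ := by
  induction h with
  | top => exact Or.inr rfl
  | step A B hle _ hn ih =>
    rcases ih with rfl | rfl
    · exact Or.inl (le_bot_iff.mp hle)
    · haveI : A.Normal := ⟨fun n hn' g => by
        have := hn.conj_mem ⟨n, mem_top n⟩ (mem_subgroupOf.mpr hn') ⟨g, mem_top g⟩
        exact mem_subgroupOf.mp this⟩
      exact Subgroup.Normal.eq_bot_or_eq_top inferInstance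

theorem card_sl13 : Nat.card SL13 = 2184 := by
  haveI : Fact (Nat.Prime 13) := ⟨by norm_num⟩
  rw [CfsgLib.Classical.Linear.card_sl_two, ZMod.card]
  norm_num

theorem card_center_sl13 : Nat.card (center SL13) = 2 := by
  haveI : Fact (Nat.Prime 13) := ⟨by norm_num⟩
  rw [CfsgLib.Classical.Linear.center_sl_card, Fintype.card_fin, ZMod.card]
  norm_num

theorem card_l13 : Nat.card L13 = 1092 := by
  have h := Subgroup.card_eq_card_quotient_mul_card_subgroup (center SL13)
  rw [card_sl13, card_center_sl13] at h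
  change 2184 = Nat.card L13 * 2 at h
  omega

theorem isSimpleGroup_l13 : IsSimpleGroup L13 := by
  haveI : Fact (Nat.Prime 13) := ⟨by norm_num⟩
  exact CfsgLib.Classical.Linear.isSimpleGroup_psl_fin le_rfl fun _ => by
    rw [Nat.card_zmod]; norm_num

theorem prime_eq_of_dvd_1092 {r : ℕ} (hr : r.Prime) (h : r ∣ 1092) :
    r = 2 ∨ r = 3 ∨ r = 7 ∨ r = 13 := by
  have e : 1092 = 2 * 2 * (3 * (7 * 13)) := by norm_num
  rw [e] at h
  have key : ∀ q : ℕ, q.Prime → r ∣ q → r = q := fun q hq hd =>
    (Nat.prime_dvd_prime_iff_eq hr hq).mp hd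
  rcases hr.dvd_mul.mp h with h | h
  · rcases hr.dvd_mul.mp h with h | h <;> exact Or.inl (key 2 (by norm_num) h)
  rcases hr.dvd_mul.mp h with h | h
  · exact Or.inr (Or.inl (key 3 (by norm_num) h))
  rcases hr.dvd_mul.mp h with h | h
  · exact Or.inr (Or.inr (Or.inl (key 7 (by norm_num) h)))
  · exact Or.inr (Or.inr (Or.inr (key 13 (by norm_num) h)))

/-- A perfect central extension of `PSL(2,13)`. -/
theorem cover_l13 {K : Type*} [Group K] [Finite K] (σ : K →* L13) (hs : Function.Surjective σ)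
    (hc : σ.ker ≤ center K) (hp : commutator K = ⊤) :
    Nonempty (K ≃* L13) ∨ Nonempty (K ≃* SL13) := by
  haveI : Fact (Nat.Prime 13) := ⟨by norm_num⟩
  have hg : CfsgLib.SteinbergSL.PSLGood 2 (Fintype.card (ZMod 13)) := by
    rw [ZMod.card]; exact Or.inl ⟨rfl, by norm_num, by norm_num, by norm_num⟩
  let q : SL13 →* L13 := QuotientGroup.mk' _
  let Δ : Subgroup (K × SL13) := (σ.comp (MonoidHom.fst _ _)).eqLocus (q.comp (MonoidHom.snd _ _))
  let σ' : Δ →* SL13 := (MonoidHom.snd _ _).comp Δ.subtype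
  have hs' : Function.Surjective σ' := fun g => by
    obtain ⟨a, ha⟩ := hs (q g)
    exact ⟨⟨(a, g), ha⟩, rfl⟩
  have hc' : σ'.ker ≤ center Δ := by
    rintro ⟨⟨a, g⟩, hag⟩ hk
    obtain rfl : g = 1 := hk
    have ha : a ∈ center K :=
      hc (MonoidHom.mem_ker.2 ((show σ a = q 1 from hag).trans (map_one q)))
    refine mem_center_iff.2 ?_
    rintro ⟨⟨b, g'⟩, hb⟩
    exact Subtype.ext (Prod.ext (mem_center_iff.1 ha b) (by simp))
  obtain ⟨φ, hφ⟩ := CfsgLib.SteinbergSL.exists_section_of_good hg σ' hs' hc'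
  let ψ : SL13 →* K := (MonoidHom.fst _ _).comp (Δ.subtype.comp φ)
  have hψ : ∀ g, σ (ψ g) = q g := fun g => by
    have h1 : σ (φ g).1.1 = q (φ g).1.2 := (φ g).2
    exact h1.trans (congrArg q (hφ g))
  have hψs : Function.Surjective ψ := by
    rw [← MonoidHom.range_eq_top]
    refine eq_top_iff.mpr (hp ▸ CfsgLib.SteinbergSL.commutator_le_of_map_eq_top hc ?_)
    refine eq_top_iff.2 fun x _ => ?_
    obtain ⟨g, rfl⟩ := QuotientGroup.mk'_surjective _ x
    exact ⟨ψ g, ⟨g, rfl⟩, hψ g⟩
  have hker : ψ.ker ≤ center SL13 := fun g hg' => by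
    refine (QuotientGroup.eq_one_iff g).mp ?_
    change q g = 1
    rw [← hψ g, MonoidHom.mem_ker.mp hg', map_one]
  have hd := Subgroup.card_dvd_of_le hker
  rw [card_center_sl13] at hd
  rcases (Nat.dvd_prime Nat.prime_two).mp hd with h | h
  · exact Or.inr ⟨(MulEquiv.ofBijective ψ
      ⟨(MonoidHom.ker_eq_bot_iff ψ).mp (Subgroup.eq_bot_of_card_eq _ h), hψs⟩).symm⟩
  · have he : ψ.ker = center SL13 :=
      Subgroup.eq_of_le_of_card_ge hker (by rw [h, card_center_sl13])
    exact Or.inl ⟨(QuotientGroup.quotientKerEquivOfSurjective ψ hψs).symm.trans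
      (QuotientGroup.quotientMulEquivOfEq he)⟩

/-- In `L × A`, `L` simple, no element of order `r` of `A` goes with a Sylow `r`-subgroup of `L` of
order `r` (or of order `4`). -/
theorem not_dvd_of_prod {L A : Type*} [Group L] [Finite L] [IsSimpleGroup L] [Group A] [Finite A]
    (hM : MaxNormalizers (L × A)) {r : ℕ} [hr : Fact r.Prime] (P : Sylow r L)
    (hP : Nat.card P = r ∨ (r = 2 ∧ Nat.card P = 4)) (hne : Nat.card L ≠ Nat.card P)
    (h2 : r = 2 → (Nat.card L).minFac = 2) : ¬ r ∣ Nat.card A := by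
  intro hd
  obtain ⟨ρ, hρ⟩ := exists_prime_orderOf_dvd_card' r hd
  have hPbot : (P : Subgroup L) ≠ ⊥ := fun e => by
    have h1 : Nat.card P = 1 := Subgroup.card_eq_one.mpr e
    have := hr.out.two_le
    rcases hP with h | ⟨-, h⟩ <;> rw [h1] at h <;> omega
  have hPtop : (P : Subgroup L) ≠ ⊤ := fun e => hne (by
    rw [← Subgroup.card_top (G := L)]; exact (congrArg (fun H : Subgroup L => Nat.card H) e).symm)
  -- Burnside
  have hB : ¬ normalizer ((P : Subgroup L) : Set L) ≤ centralizer ((P : Subgroup L) : Set L) := by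
    intro hle
    have hc := MonoidHom.ker_transferSylow_isComplement' P hle
    rcases (MonoidHom.normal_ker (MonoidHom.transferSylow P hle)).eq_bot_or_eq_top with h | h
    · rw [h, isComplement'_bot_left] at hc; exact hPtop hc
    · rw [h, isComplement'_top_left] at hc; exact hPbot hc
  have hexp : ∀ v ∈ (P : Subgroup L), v ^ r = 1 := by
    intro v hv
    have h1 : orderOf v ∣ Nat.card P := Subgroup.orderOf_dvd_natCard _ hv
    rcases hP with h | ⟨rfl, h⟩
    · rw [h] at h1; exact orderOf_dvd_iff_pow_eq_one.mp h1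
    · rw [h, show (4 : ℕ) = 2 ^ 2 by norm_num, Nat.dvd_prime_pow Nat.prime_two] at h1
      obtain ⟨i, hi, ho⟩ := h1
      refine orderOf_dvd_iff_pow_eq_one.mp ?_
      rcases Nat.lt_or_ge i 2 with hlt | hge
      · rw [ho]; exact (pow_dvd_pow 2 (Nat.le_of_lt_succ hlt)).trans (by norm_num)
      · exfalso
        obtain rfl : i = 2 := le_antisymm hi hge
        refine hB (IsCyclic.normalizer_le_centralizer (h2 rfl) ?_)
        exact isCyclic_of_orderOf_eq_card ⟨v, hv⟩ (by rw [Subgroup.orderOf_mk, ho, h]; norm_num)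
  obtain ⟨k, hk, hkc⟩ := SetLike.not_le_iff_exists.mp hB
  obtain ⟨v, hv, hvw⟩ : ∃ v ∈ (P : Subgroup L), k * v * k⁻¹ ≠ v := by
    by_contra hc
    push Not at hc
    exact hkc (mem_centralizer_iff.mpr fun v hv => by
      calc v * k = k * v * k⁻¹ * k := by rw [hc v hv]
        _ = k * v := by group)
  have hw : k * v * k⁻¹ ∈ (P : Subgroup L) := (mem_normalizer_iff.mp hk v).mp hv
  set P' := (P : Subgroup L)
  let u : P' := ⟨v, hv⟩⁻¹ * ⟨k * v * k⁻¹, hw⟩
  have hu : u ≠ 1 := fun e => hvw (congrArg Subtype.val (inv_mul_eq_one.mp e)).symm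
  have hv1 : (⟨v, hv⟩ : P') ≠ 1 := fun e => hvw (by
    have e' : v = 1 := congrArg Subtype.val e
    rw [e']; group)
  have hPc : ∀ a b : P', a * b = b * a := by
    intro a b
    rcases hP with h | ⟨rfl, -⟩
    · haveI : IsCyclic P' := isCyclic_of_prime_card h
      exact IsCyclic.commutative.1.comm a b
    · have sq : ∀ c : P', c⁻¹ = c := fun c => inv_eq_of_mul_eq_one_right (Subtype.ext (by
        rw [← pow_two]; exact hexp c c.2))
      calc a * b = (a * b)⁻¹ := (sq _).symm
        _ = b⁻¹ * a⁻¹ := mul_inv_rev a b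
        _ = b * a := by rw [sq, sq]
  obtain ⟨W, hWi, hWu⟩ : ∃ W : Subgroup P', W.index = r ∧ u ∉ W := by
    rcases hP with h | ⟨rfl, h⟩
    · exact ⟨⊥, by rw [index_bot]; exact h, fun hm => hu (mem_bot.mp hm)⟩
    · have ho : orderOf (⟨v, hv⟩ : P') = 2 :=
        orderOf_eq_prime (Subtype.ext (hexp v hv)) hv1
      refine ⟨zpowers ⟨v, hv⟩, ?_, ?_⟩
      · have := Subgroup.card_mul_index (zpowers (⟨v, hv⟩ : P'))
        rw [Nat.card_zpowers, ho, h] at this
        omega
      · intro hm
        rw [← mem_powers_iff_mem_zpowers, Submonoid.mem_powers_iff] at hm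
        obtain ⟨n, hn⟩ := hm
        rw [← pow_mod_orderOf, ho] at hn
        rcases Nat.mod_two_eq_zero_or_one n with e | e <;> rw [e] at hn
        · exact hu (by rw [← hn, pow_zero])
        · rw [pow_one, eq_comm, show u = ⟨v, hv⟩⁻¹ * ⟨k * v * k⁻¹, hw⟩ from rfl,
            inv_mul_eq_iff_eq_mul] at hn
          have hn' : k * v * k⁻¹ = v * v := congrArg Subtype.val hn
          rw [← pow_two, hexp v hv, conj_eq_one_iff] at hn'
          exact hv1 (Subtype.ext hn')
  haveI hWn : W.Normal := ⟨fun n hn g => by rwa [hPc g n, mul_inv_cancel_right]⟩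
  let e : P' ⧸ W ≃* zpowers ρ :=
    mulEquivOfPrimeCardEq (p := r) (by rw [← index_eq_card]; exact hWi)
      (by rw [Nat.card_zpowers]; exact hρ)
  let φ : P' →* A := (zpowers ρ).subtype.comp (e.toMonoidHom.comp (QuotientGroup.mk' W))
  have hφ : φ u ≠ 1 := fun h => hWu ((QuotientGroup.eq_one_iff u).mp
    (e.injective (Subtype.ext (h.trans (by simp)))))
  let ι : P' →* L × A := P'.subtype.prod φ
  have hmap : ι.range.map (MonoidHom.fst L A) = P' := by
    rw [MonoidHom.map_range, show (MonoidHom.fst L A).comp ι = P'.subtype from rfl,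
      Subgroup.range_subtype]
  have hns : ¬ ι.range.IsSubnormal := fun hs => by
    have hs' := hmap ▸ hs.map (f := MonoidHom.fst L A) Prod.fst_surjective
    rcases eq_bot_or_top_of_isSubnormal hs' with h | h
    · exact hPbot h
    · exact hPtop h
  have hb : Biprimary ι.range :=
    biprimary_of_isPGroup hr.out (P.2.of_surjective ι.rangeRestrict ι.rangeRestrict_surjective)
  have hle : normalizer (ι.range : Set (L × A)) ≤
      (normalizer (P' : Set L)).comap (MonoidHom.fst L A) := by
    have := Subgroup.le_normalizer_map (H := ι.range) (MonoidHom.fst L A)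
    rw [hmap] at this
    exact Subgroup.map_le_iff_le_comap.mp this
  have htop : (normalizer (P' : Set L)).comap (MonoidHom.fst L A) ≠ ⊤ := fun h => by
    have hn : normalizer (P' : Set L) = ⊤ := by
      rw [← map_comap_eq_self_of_surjective (f := MonoidHom.fst L A) Prod.fst_surjective
        (normalizer (P' : Set L)), h, map_top_of_surjective _ Prod.fst_surjective]
    rcases (normalizer_eq_top_iff.mp hn).eq_bot_or_eq_top with h' | h'
    · exact hPbot h'
    · exact hPtop h'
  have heq : normalizer (ι.range : Set (L × A)) =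
      (normalizer (P' : Set L)).comap (MonoidHom.fst L A) := by
    by_contra hne'
    exact htop ((hM _ hns hb).2 _ (lt_of_le_of_ne hle hne'))
  have hk1 : ((k, 1) : L × A) ∈ normalizer (ι.range : Set (L × A)) := heq ▸ hk
  obtain ⟨p', hp'⟩ := (mem_normalizer_iff.mp hk1 (ι ⟨v, hv⟩)).mp ⟨_, rfl⟩
  have h1 : (p' : L) = k * v * k⁻¹ := congrArg Prod.fst hp'
  have h2' : φ p' = φ ⟨v, hv⟩ := (congrArg Prod.snd hp').trans (by simp [ι])
  have h3 : p' = ⟨k * v * k⁻¹, hw⟩ := Subtype.ext h1
  refine hφ ?_
  rw [map_mul, map_inv, ← h3, h2', inv_mul_cancel]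

/-- A `p`-element outside the normal subgroup `R` in a normalised cyclic group. -/
theorem commute_of_normalizes {G : Type*} [Group G] {R : Subgroup G} [R.Normal] {p r : ℕ}
    (hp : p.Prime) (hr : r.Prime) (hne : r ≠ p) {x ρ : G} {a j : ℕ} (hx : x ^ p ^ a = 1)
    (hxR : x ∉ R) (hρ : ρ ∈ R) (hρj : ρ ^ r ^ j = 1)
    (hn : ρ * x * ρ⁻¹ ∈ zpowers x) : Commute ρ x := by
  obtain ⟨m, hm⟩ := mem_zpowers_iff.mp hn
  have hxR' : x ^ (m - 1) ∈ R := by
    rw [zpow_sub_one, hm, show ρ * x * ρ⁻¹ * x⁻¹ = ρ * (x * ρ⁻¹ * x⁻¹) by group]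
    exact mul_mem hρ (Subgroup.Normal.conj_mem inferInstance _ (inv_mem hρ) x)
  have hpm : (p : ℤ) ∣ m - 1 := by
    by_contra hnd
    have hco : IsCoprime (m - 1) ((p : ℤ) ^ a) :=
      (((Nat.prime_iff_prime_int.mp hp).coprime_iff_not_dvd).mpr hnd).symm.pow_right
    obtain ⟨s, t, hst⟩ := hco
    refine hxR ?_
    have : x = (x ^ (m - 1)) ^ s * (x ^ ((p : ℤ) ^ a)) ^ t := by
      rw [← zpow_mul, ← zpow_mul, ← zpow_add,
        show (m - 1) * s + (p : ℤ) ^ a * t = 1 by linarith, zpow_one]
    rw [this, show ((p : ℤ) ^ a) = ((p ^ a : ℕ) : ℤ) by push_cast; ring, zpow_natCast, hx, one_zpow,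
      mul_one]
    exact zpow_mem hxR' s
  have hpow : ∀ n : ℕ, ρ ^ n * x * (ρ ^ n)⁻¹ = x ^ (m ^ n) := by
    intro n
    induction n with
    | zero => simp
    | succ n ih =>
      calc ρ ^ (n + 1) * x * (ρ ^ (n + 1))⁻¹ = ρ * (ρ ^ n * x * (ρ ^ n)⁻¹) * ρ⁻¹ := by
            rw [pow_succ']; group
        _ = (ρ * x * ρ⁻¹) ^ (m ^ n) := by rw [ih, conj_zpow]
        _ = x ^ (m ^ (n + 1)) := by rw [← hm, ← zpow_mul, pow_succ']
  have h1 : x ^ (m ^ r ^ j - 1) = 1 := by
    rw [zpow_sub_one, ← hpow, hρj]; group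
  have hord : (orderOf x : ℤ) ∣ (p : ℤ) ^ a := by
    exact_mod_cast orderOf_dvd_of_pow_eq_one hx
  set N := orderOf x with hN
  have u1 : (m : ZMod N) ^ (r ^ j) = 1 := by
    have := orderOf_dvd_iff_zpow_eq_one.mpr h1
    rw [← hN, ← ZMod.intCast_zmod_eq_zero_iff_dvd] at this
    push_cast at this
    exact sub_eq_zero.mp this
  have u2 : (m : ZMod N) ^ (p ^ a) = 1 := by
    have h3 : ((p : ℤ)) ^ (a + 1) ∣ m ^ p ^ a - 1 ^ p ^ a := dvd_sub_pow_of_dvd_sub hpm a
    rw [one_pow] at h3
    have h4 := hord.trans ((pow_dvd_pow (p : ℤ) (Nat.le_succ a)).trans h3)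
    rw [← ZMod.intCast_zmod_eq_zero_iff_dvd] at h4
    push_cast at h4
    exact sub_eq_zero.mp h4
  have u3 : (m : ZMod N) ^ Nat.gcd (r ^ j) (p ^ a) = 1 := pow_gcd_eq_one.mpr ⟨u1, u2⟩
  rw [Nat.Coprime.gcd_eq_one (Nat.Coprime.pow _ _ ((Nat.coprime_primes hr hp).mpr hne)),
    pow_one] at u3
  have h5 : x ^ (m - 1) = 1 := by
    rw [← orderOf_dvd_iff_zpow_eq_one, ← hN, ← ZMod.intCast_zmod_eq_zero_iff_dvd]
    push_cast
    rw [u3, sub_self]
  rw [zpow_sub_one, mul_inv_eq_one] at h5
  rw [h5] at hm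
  exact eq_mul_inv_iff_mul_eq.mp hm |>.symm

/-- Solvable radical with quotient `PSL(2,13)`. -/
theorem exists_decomposition {G : Type*} [Group G] [Finite G] (hM : MaxNormalizers G)
    {R : Subgroup G} [R.Normal] (hRs : Group.IsSolvable R)
    (_hRmax : ∀ N : Subgroup G, N.Normal → Group.IsSolvable N → N ≤ R)
    (e : G ⧸ R ≃* Matrix.ProjectiveSpecialLinearGroup (Fin 2) (ZMod 13)) :
    ∃ K S : Subgroup G, K.Normal ∧ S.Normal ∧ K ⊓ S = ⊥ ∧ K ⊔ S = ⊤ ∧
      (Nonempty (K ≃* Matrix.ProjectiveSpecialLinearGroup (Fin 2) (ZMod 13)) ∨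
        Nonempty (K ≃* Matrix.SpecialLinearGroup (Fin 2) (ZMod 13))) ∧
      IsMulCommutative S ∧ (Nat.card K).Coprime (Nat.card S) := by
  haveI : Fact (Nat.Prime 13) := ⟨by norm_num⟩
  haveI := isSimpleGroup_l13
  let π : G →* L13 := e.toMonoidHom.comp (QuotientGroup.mk' R)
  have hπ : Function.Surjective π := e.surjective.comp (QuotientGroup.mk'_surjective R)
  have hkerπ : π.ker = R := by
    ext g
    simp [π]
  -- biprimary subgroups outside `R` are normalised by `R`
  have hnorm : ∀ H : Subgroup G, Biprimary H → ¬ H ≤ R → R ≤ normalizer (H : Set G) := by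
    intro H hb hH
    obtain ⟨p, q, hp, hq, hpq⟩ := hb
    have hne : H.map π ≠ ⊥ := fun h => hH (by
      rw [Subgroup.map_eq_bot_iff, hkerπ] at h; exact h)
    have hno : H.map π ≠ ⊤ := fun h => by
      have h3 : ∀ r : ℕ, r.Prime → r ∣ 1092 → r = p ∨ r = q := fun r hr hd => hpq r hr (by
        refine hd.trans ?_
        rw [← card_l13, ← Subgroup.card_top (G := L13), ← h]
        exact Subgroup.card_map_dvd _ _)
      have := h3 2 (by norm_num) (by norm_num)
      have := h3 3 (by norm_num) (by norm_num)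
      have := h3 7 (by norm_num) (by norm_num)
      omega
    have hns : ¬ H.IsSubnormal := fun hs => by
      rcases eq_bot_or_top_of_isSubnormal (hs.map hπ) with h | h
      · exact hne h
      · exact hno h
    have hco := hM H hns ⟨p, q, hp, hq, hpq⟩
    by_contra hle
    have htop : normalizer (H : Set G) ⊔ R = ⊤ := hco.2 _ (left_lt_sup.mpr hle)
    have h1 : (⊤ : Subgroup L13) ≤ normalizer ((H.map π : Subgroup L13) : Set L13) := by
      rw [← map_top_of_surjective π hπ, ← htop, Subgroup.map_sup,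
        (Subgroup.map_eq_bot_iff R).mpr hkerπ.ge, sup_bot_eq]
      exact le_normalizer_map π
    rcases (normalizer_eq_top_iff.mp (top_le_iff.mp h1)).eq_bot_or_eq_top with h | h
    · exact hne h
    · exact hno h
  -- the perfect core
  have hns : ¬ Group.IsSolvable G := fun hs => by
    haveI := hs
    haveI : Group.IsSolvable L13 := solvable_of_surjective hπ
    have hnc : ∀ a b : L13, a * b = b * a :=
      IsSimpleGroup.comm_iff_isSolvable.mpr inferInstance
    letI : CommGroup L13 := { (inferInstance : Group L13) with mul_comm := hnc }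
    have := IsSimpleGroup.prime_card (α := L13)
    rw [card_l13] at this
    norm_num at this
  obtain ⟨K, hKn, hKp, hKnt⟩ := CfsgLib.Frobenius.Zass.exists_perfect_core hns
  haveI := hKn
  have hKR : ¬ K ≤ R := fun hle => by
    haveI := hRs
    haveI : Group.IsSolvable K := solvable_of_solvable_injective (inclusion_injective hle)
    haveI := hKnt
    exact (Group.IsSolvable.commutator_lt_top_of_nontrivial K).ne hKp
  have hKperf : ⁅K, K⁆ = K := by
    conv_rhs => rw [← Subgroup.range_subtype K, MonoidHom.range_eq_map, ← hKp]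
    rw [Subgroup.map_subtype_commutator]
  have hKtop : K.map π = ⊤ := by
    haveI := hKn.map π hπ
    refine (Subgroup.Normal.eq_bot_or_eq_top (H := K.map π) inferInstance).resolve_left fun h => ?_
    rw [Subgroup.map_eq_bot_iff, hkerπ] at h
    exact hKR h
  have hsup : K ⊔ R = ⊤ := by
    rw [← hkerπ, ← Subgroup.comap_map_eq, hKtop, Subgroup.comap_top]
  have helem : ∀ (H : Subgroup G), H.map π = ⊤ → ∀ p : ℕ, p.Prime → p ∣ 1092 →
      ∃ x ∈ H, x ∉ R ∧ ∃ a : ℕ, x ^ p ^ a = 1 := by
    intro H hH p hp hd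
    haveI := Fact.mk hp
    let S : Sylow p H := default
    by_contra hc
    push Not at hc
    have hSR : (S : Subgroup H) ≤ R.subgroupOf H := by
      intro s hs
      obtain ⟨a, ha⟩ := S.2 ⟨s, hs⟩
      by_contra hsR
      exact hc s s.2 hsR a (congrArg (fun z : S => ((z : H) : G)) ha)
    have hidx : (R.subgroupOf H).index = 1092 := by
      have h := Subgroup.index_ker (π.comp H.subtype)
      rw [MonoidHom.range_comp, Subgroup.range_subtype, hH, Subgroup.card_top, card_l13,
        ← MonoidHom.comap_ker, hkerπ] at h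
      exact h
    exact S.not_dvd_index (hd.trans (hidx ▸ Subgroup.index_dvd_of_le hSR))
  -- `R` centralises `K`
  have hRC : R ≤ centralizer (K : Set G) := by
    have h1 : (centralizer (K : Set G)).subgroupOf R = ⊤ := by
      refine eq_top_of_forall_sylow_le fun r hr => ⟨default, ?_⟩
      intro ρ hρ
      obtain ⟨j, hj⟩ := (default : Sylow r R).2 ⟨ρ, hρ⟩
      have hj' : (ρ : G) ^ r ^ j = 1 := congrArg (fun z : (default : Sylow r R) => ((z : R) : G)) hj
      obtain ⟨p, hp, hpd, hrp⟩ : ∃ p : ℕ, p.Prime ∧ p ∣ 1092 ∧ r ≠ p := by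
        rcases eq_or_ne r 7 with rfl | h
        · exact ⟨13, by norm_num, by norm_num, by norm_num⟩
        · exact ⟨7, by norm_num, by norm_num, h⟩
      let S : Set G := {x | x ∉ R ∧ ∃ a : ℕ, x ^ p ^ a = 1}
      set Kp := normalClosure S with hKp'
      have hKpC : Kp ≤ centralizer {(ρ : G)} := by
        rw [hKp', normalClosure, closure_le]
        intro y hy
        obtain ⟨x, ⟨hxR, a, ha⟩, hxy⟩ := Group.mem_conjugatesOfSet_iff.mp hy
        obtain ⟨g, rfl⟩ := isConj_iff.mp hxy
        have hyR : g * x * g⁻¹ ∉ R := fun h => hxR (by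
          have := ‹R.Normal›.conj_mem _ h g⁻¹
          simpa [mul_assoc] using this)
        have hya : (g * x * g⁻¹) ^ p ^ a = 1 := by rw [conj_pow, ha]; group
        haveI := Fact.mk hp
        have hyp : IsPGroup p (zpowers (g * x * g⁻¹)) := by
          rw [IsPGroup.iff_card]
          obtain ⟨i, -, hi⟩ := (Nat.dvd_prime_pow hp).mp (orderOf_dvd_of_pow_eq_one hya)
          exact ⟨i, by rw [Nat.card_zpowers, hi]⟩
        have hN := hnorm _ (biprimary_of_isPGroup hp hyp)
          (fun h => hyR (h (mem_zpowers _))) ρ.2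
        have := commute_of_normalizes hp hr hrp hya hyR ρ.2 hj'
          ((mem_normalizer_iff.mp hN _).mp (mem_zpowers _))
        exact mem_centralizer_singleton_iff.mpr this.eq.symm
      have hKpK : K ≤ Kp := by
        obtain ⟨x, -, hxR, hxa⟩ := helem ⊤ (map_top_of_surjective π hπ) p hp hpd
        haveI : Kp.Normal := normalClosure_normal
        haveI : (Kp.map π).Normal := Subgroup.Normal.map inferInstance π hπ
        have htop : Kp.map π = ⊤ := by
          refine (Subgroup.Normal.eq_bot_or_eq_top (H := Kp.map π) inferInstance).resolve_left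
            fun h => ?_
          rw [Subgroup.map_eq_bot_iff, hkerπ] at h
          exact hxR (h (subset_normalClosure ⟨hxR, hxa⟩))
        have hsol : Group.IsSolvable (G ⧸ Kp) := by
          haveI := hRs
          refine solvable_of_surjective (f := (QuotientGroup.mk' Kp).comp R.subtype) fun z => ?_
          obtain ⟨g, rfl⟩ := QuotientGroup.mk_surjective z
          obtain ⟨k, hk, hke⟩ : π g ∈ Kp.map π := htop ▸ mem_top _
          refine ⟨⟨k⁻¹ * g, ?_⟩, ?_⟩
          · rw [← hkerπ, MonoidHom.mem_ker, map_mul, map_inv, hke, inv_mul_cancel]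
          · refine QuotientGroup.eq.mpr ?_
            have e1 : (k⁻¹ * g)⁻¹ * g = g⁻¹ * k * g := by group
            show (k⁻¹ * g)⁻¹ * g ∈ Kp
            rw [e1]
            simpa using (normalClosure_normal (s := S)).conj_mem k hk g⁻¹
        obtain ⟨n, hn⟩ := hsol
        have : ∀ i, K.map (QuotientGroup.mk' Kp) ≤ derivedSeries (G ⧸ Kp) i := by
          intro i
          induction i with
          | zero => exact le_top
          | succ i ih =>
            rw [derivedSeries_succ, ← hKperf, Subgroup.map_commutator]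
            exact commutator_mono ih ih
        have h := this n
        rw [hn, le_bot_iff, Subgroup.map_eq_bot_iff, QuotientGroup.ker_mk'] at h
        exact h
      refine mem_subgroupOf.mpr (mem_centralizer_iff.mpr fun k hk => ?_)
      exact mem_centralizer_singleton_iff.mp (hKpC (hKpK hk))
    exact subgroupOf_eq_top.mp h1
  -- every subgroup of `R` is normal in `G`
  have hRn : ∀ H : Subgroup G, H ≤ R → H.Normal := by
    intro H hH
    refine normalizer_eq_top_iff.mp (eq_top_iff.mpr (hsup ▸ sup_le (fun k hk => ?_) (fun g hg => ?_)))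
    · refine mem_normalizer_iff.mpr fun z => ⟨fun hz => ?_, fun hz => ?_⟩
      · rw [mem_centralizer_iff.mp (hRC (hH hz)) k hk, mul_inv_cancel_right]
        exact hz
      · have := mem_centralizer_iff.mp (hRC (hH hz)) k hk
        have e1 : z = k * z * k⁻¹ := by
          calc z = k⁻¹ * (k * z * k⁻¹ * k) := by group
            _ = k⁻¹ * (k * (k * z * k⁻¹)) := by rw [← this]
            _ = k * z * k⁻¹ := by group
        rwa [e1]
    · have key : ∀ g ∈ R, ∀ z ∈ H, g * z * g⁻¹ ∈ H := by
        intro g hg z hz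
        have h1 : (H.comap (MulAut.conj g).toMonoidHom).subgroupOf H = ⊤ := by
          refine eq_top_of_forall_sylow_le fun r hr => ⟨default, fun s hs => ?_⟩
          haveI := Fact.mk hr
          let X : Subgroup G := ((default : Sylow r H) : Subgroup H).map H.subtype
          have hX : IsPGroup r X := (default : Sylow r H).2.map _
          have hXR : X ≤ R := (map_subtype_le _).trans hH
          obtain ⟨p, hp, hpd, hrp⟩ : ∃ p : ℕ, p.Prime ∧ p ∣ 1092 ∧ r ≠ p := by
            rcases eq_or_ne r 7 with rfl | h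
            · exact ⟨13, by norm_num, by norm_num, by norm_num⟩
            · exact ⟨7, by norm_num, by norm_num, h⟩
          haveI := Fact.mk hp
          obtain ⟨c, hcK, hcR, a, ha⟩ := helem K hKtop p hp hpd
          have hC : IsPGroup p (zpowers c) := by
            rw [IsPGroup.iff_card]
            obtain ⟨i, -, hi⟩ := (Nat.dvd_prime_pow hp).mp (orderOf_dvd_of_pow_eq_one ha)
            exact ⟨i, by rw [Nat.card_zpowers, hi]⟩
          have hcn : zpowers c ≤ normalizer (X : Set G) := by
            refine zpowers_le.mpr (mem_normalizer_iff.mpr fun z => ?_)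
            constructor <;> intro hz
            · rw [mem_centralizer_iff.mp (hRC (hXR hz)) c hcK, mul_inv_cancel_right]
              exact hz
            · have := mem_centralizer_iff.mp (hRC (hXR hz)) c hcK
              have e1 : z = c * z * c⁻¹ := by
                calc z = c⁻¹ * (c * z * c⁻¹ * c) := by group
                  _ = c⁻¹ * (c * (c * z * c⁻¹)) := by rw [← this]
                  _ = c * z * c⁻¹ := by group
              rwa [e1]
          have hXn : R ≤ normalizer (X : Set G) :=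
            (hnorm _ (biprimary_sup hr hp hX hC hcn) fun h =>
              hcR (h (mem_sup_right (mem_zpowers c)))).trans (normalizer_sup_le hrp hX hC hcn)
          have := (mem_normalizer_iff.mp (hXn hg) (s : G)).mp ⟨s, hs, rfl⟩
          exact mem_subgroupOf.mpr (mem_comap.mpr (map_subtype_le _ this))
        exact mem_comap.mp (subgroupOf_eq_top.mp h1 hz)
      exact mem_normalizer_iff.mpr fun z => ⟨key g hg z, fun hz => by
        simpa [mul_assoc] using key g⁻¹ (inv_mem hg) _ hz⟩
  -- identify `K`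
  have hker : (π.comp K.subtype).ker ≤ center K := by
    intro z hz
    have hzR : (z : G) ∈ R := hkerπ ▸ hz
    exact mem_center_iff.mpr fun k => Subtype.ext (mem_centralizer_iff.mp (hRC hzR) k k.2)
  have hKs : Function.Surjective (π.comp K.subtype) := by
    rw [← MonoidHom.range_eq_top, MonoidHom.range_comp, Subgroup.range_subtype, hKtop]
  have hKiso := cover_l13 _ hKs hker hKp
  have hKcard : Nat.card K = 1092 ∨ Nat.card K = 2184 := by
    rcases hKiso with h | h <;> obtain ⟨f⟩ := h
    · exact Or.inl ((Nat.card_congr f.toEquiv).trans card_l13)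
    · exact Or.inr ((Nat.card_congr f.toEquiv).trans card_sl13)
  let Z : Subgroup R := K.subgroupOf R
  have hZ2 : Nat.card Z ∣ 2 := by
    have h1 := Subgroup.card_mul_index (π.comp K.subtype).ker
    rw [Subgroup.index_ker, MonoidHom.range_eq_top.mpr hKs, Subgroup.card_top, card_l13] at h1
    have h2 : Nat.card Z = Nat.card (π.comp K.subtype).ker := by
      rw [← MonoidHom.comap_ker, hkerπ]
      exact Nat.card_congr {
        toFun := fun z => ⟨⟨z.1.1, z.2⟩, z.1.2⟩
        invFun := fun z => ⟨⟨z.1.1, z.2⟩, z.1.2⟩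
        left_inv := fun _ => rfl
        right_inv := fun _ => rfl }
    rw [h2]
    rcases hKcard with h | h <;> rw [h] at h1
    · exact ⟨2, by omega⟩
    · exact ⟨1, by omega⟩
  -- the quotient `L13 × G/K`
  have hMq : MaxNormalizers (L13 × (G ⧸ K)) := by
    refine hM.of_surjective (π.prod (QuotientGroup.mk' K)) ?_
    rintro ⟨l, z⟩
    obtain ⟨g, rfl⟩ := QuotientGroup.mk_surjective z
    obtain ⟨k, hk, hρ⟩ : l * (π g)⁻¹ ∈ K.map π := hKtop ▸ mem_top _
    refine ⟨k * g, Prod.ext ?_ ?_⟩
    · show π (k * g) = l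
      rw [map_mul, hρ, inv_mul_cancel_right]
    · show ((k * g : G) : G ⧸ K) = g
      refine QuotientGroup.eq.mpr ?_
      have e1 : (k * g)⁻¹ * g = g⁻¹ * k⁻¹ * g := by group
      rw [e1]
      simpa using hKn.conj_mem _ (inv_mem hk) g⁻¹
  have hco : Nat.Coprime 1092 (Nat.card (G ⧸ K)) := by
    refine Nat.coprime_of_dvd fun r hr h1 h2 => ?_
    haveI := Fact.mk hr
    let P : Sylow r L13 := default
    have hP : Nat.card P = r ^ (Nat.factorization 1092 r) := by
      rw [← card_l13]; exact P.card_eq_multiplicity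
    have hfac : ∀ (q b m : ℕ), q.Prime → 1092 = q ^ b * m → ¬ q ∣ m →
        Nat.factorization 1092 q = b := by
      intro q b m hq he hnd
      have hm : m ≠ 0 := fun h => hnd (h ▸ dvd_zero q)
      rw [he, Nat.factorization_mul (pow_ne_zero _ hq.ne_zero) hm, Finsupp.add_apply,
        hq.factorization_pow, Finsupp.single_eq_same, Nat.factorization_eq_zero_of_not_dvd hnd,
        add_zero]
    refine not_dvd_of_prod hMq P ?_ ?_ ?_ h2
    · rw [hP]
      rcases prime_eq_of_dvd_1092 hr h1 with rfl | rfl | rfl | rfl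
      · exact Or.inr ⟨rfl, by rw [hfac 2 2 273 hr (by norm_num) (by norm_num)]; norm_num⟩
      · exact Or.inl (by rw [hfac 3 1 364 hr (by norm_num) (by norm_num)]; norm_num)
      · exact Or.inl (by rw [hfac 7 1 156 hr (by norm_num) (by norm_num)]; norm_num)
      · exact Or.inl (by rw [hfac 13 1 84 hr (by norm_num) (by norm_num)]; norm_num)
    · rw [hP, card_l13]
      rcases prime_eq_of_dvd_1092 hr h1 with rfl | rfl | rfl | rfl
      · rw [hfac 2 2 273 hr (by norm_num) (by norm_num)]; norm_num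
      · rw [hfac 3 1 364 hr (by norm_num) (by norm_num)]; norm_num
      · rw [hfac 7 1 156 hr (by norm_num) (by norm_num)]; norm_num
      · rw [hfac 13 1 84 hr (by norm_num) (by norm_num)]; norm_num
    · intro _; rw [card_l13, Nat.minFac_eq_two_iff]; norm_num
  have hidx : Z.index = Nat.card (G ⧸ K) := by
    change K.relIndex R = Nat.card (G ⧸ K)
    rw [← index_eq_card, ← Subgroup.relIndex_top_right K, ← hsup, sup_comm,
      Subgroup.relIndex_sup_right]
  have h21 : Nat.Coprime 2 (Nat.card (G ⧸ K)) := hco.coprime_dvd_left (by norm_num)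
  haveI : Z.Normal := normal_subgroupOf
  have hZco : Nat.Coprime (Nat.card Z) Z.index := hidx ▸ h21.coprime_dvd_left hZ2
  obtain ⟨S₀, hS₀⟩ := Subgroup.exists_right_complement'_of_coprime hZco
  let S : Subgroup G := S₀.map R.subtype
  have hSR : S ≤ R := map_subtype_le _
  have hScard : Nat.card S = Nat.card (G ⧸ K) := by
    rw [← hidx, hS₀.symm.index_eq_card]
    exact Nat.card_congr (Subgroup.equivMapOfInjective S₀ _ R.subtype_injective).toEquiv.symm
  refine ⟨K, S, hKn, hRn S hSR, ?_, ?_, hKiso, ?_, ?_⟩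
  · rw [eq_bot_iff]
    rintro x ⟨hxK, s, hs, rfl⟩
    have : s ∈ Z ⊓ S₀ := ⟨hxK, hs⟩
    rw [hS₀.disjoint.eq_bot, mem_bot] at this
    rw [this]
    exact one_mem _
  · rw [eq_top_iff, ← hsup]
    refine sup_le le_sup_left ?_
    have h1 : R ≤ (Z ⊔ S₀).map R.subtype := by
      rw [hS₀.sup_eq_top, ← MonoidHom.range_eq_map, Subgroup.range_subtype]
    refine h1.trans ?_
    rw [Subgroup.map_sup]
    exact sup_le_sup_right (by rintro x ⟨z, hz, rfl⟩; exact hz) _
  · have hodd : Odd (Nat.card S) := by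
      rw [hScard]
      exact Nat.coprime_two_left.mp h21
    refine ⟨⟨fun a b => ?_⟩⟩
    by_contra hne
    haveI hall : ∀ H : Subgroup S, H.Normal := fun H => by
      haveI := hRn (H.map S.subtype) ((map_subtype_le H).trans hSR)
      have e1 : H = (H.map S.subtype).subgroupOf S := by
        rw [subgroupOf, comap_map_eq_self_of_injective S.subtype_injective]
      rw [e1]
      infer_instance
    obtain ⟨x, -, y, -, hx, -⟩ := Cfsg.Agent.S4211.exists_pair hall ⊤
      ⟨a, mem_top a, b, mem_top b, hne⟩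
    have h4 : 4 ∣ Nat.card S := hx ▸ orderOf_dvd_natCard x
    exact Nat.not_even_iff_odd.mpr hodd (even_iff_two_dvd.mpr (dvd_trans (by norm_num) h4))
  · rw [hScard]
    rcases hKcard with h | h <;> rw [h]
    · exact hco
    · rw [show (2184 : ℕ) = 2 * 1092 by norm_num]
      exact Nat.Coprime.mul_left h21 hco

end CfsgLib.MaxNorm
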