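import Cfsg.Agent.MaxNorm.Local

/-!
An involution whose centraliser contains an element of odd prime order and a conjugate of the
involution moving it.
-/

set_option autoImplicit false
set_option linter.style.haveILetI false
set_option linter.unusedSectionVars false

namespace CfsgLib.MaxNorm

open Subgroup

variable {G : Type*} [Group G] [Finite G]

/-- `x` has odd prime order in `C(t)` and is moved by a conjugate `u` of `t` in `C(t)`. -/
structure Flip (t x u : G) : Prop where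
  t_ord : orderOf t = 2
  x_prime : (orderOf x).Prime
  x_odd : Odd (orderOf x)
  x_comm : x * t = t * x
  u_conj : IsConj t u
  u_comm : u * t = t * u
  u_moves : u * x ≠ x * u

omit [Finite G] in
theorem eq_one_of_odd_of_sq {a : G} (ha : Odd (orderOf a)) (h : a * a = 1) : a = 1 := by
  have h2 : orderOf a ∣ 2 := orderOf_dvd_of_pow_eq_one (by rw [sq, h])
  rcases (Nat.dvd_prime Nat.prime_two).mp h2 with e | e
  · exact orderOf_eq_one_iff.mp e
  · rw [e] at ha; exact absurd ha (by decide)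

theorem odd_orderOf_of_mem_zpowers {a b : G} (ha : Odd (orderOf a))
    (hb : b ∈ Subgroup.zpowers a) : Odd (orderOf b) :=
  ha.of_dvd_nat (orderOf_dvd_of_mem_zpowers hb)

theorem mem_zpowers_of_mem_ne_one {x w : G} (hx : (orderOf x).Prime)
    (hw : w ∈ Subgroup.zpowers x) (hw1 : w ≠ 1) : x ∈ Subgroup.zpowers w := by
  have h : Subgroup.zpowers w = Subgroup.zpowers x :=
    Subgroup.eq_of_le_of_card_ge (Subgroup.zpowers_le.mpr hw) (by
      rw [Nat.card_zpowers, Nat.card_zpowers]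
      rcases (Nat.dvd_prime hx).mp (orderOf_dvd_of_mem_zpowers hw) with e | e
      · exact absurd (orderOf_eq_one_iff.mp e) hw1
      · exact e.ge)
  exact h ▸ Subgroup.mem_zpowers x

omit [Finite G] in
theorem commute_of_mem_zpowers' {x w v : G} (hw : w ∈ Subgroup.zpowers x) (h : v * x = x * v) :
    v * w = w * v := by
  obtain ⟨i, rfl⟩ := Subgroup.mem_zpowers_iff.mp hw
  exact ((show Commute v x from h).zpow_right i).eq

section

variable (hM : MaxNormalizers G) (hR : NoSolvNormal G)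
include hM hR

theorem cen_eq_of_commute {t v x : G} (ht : orderOf t = 2) (hv : orderOf v = 2)
    (hx : (orderOf x).Prime) (hxo : Odd (orderOf x)) (hxt : x * t = t * x) (hxv : x * v = v * x) :
    Cen v = Cen t := by
  haveI := Fact.mk hx
  have h2 : orderOf x ≠ 2 := fun e => by rw [e] at hxo; exact absurd hxo (by decide)
  have hp := isPGroup_zpowers (p := orderOf x) (k := 1) (y := x) (pow_one _).symm
  have hne := zpowers_ne_bot' (y := x) fun e => hx.ne_one (orderOf_eq_one_iff.mpr e)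
  rw [← normalizer_eq_cen hM hR ht h2 hp hne (Subgroup.zpowers_le.mpr (mem_cen.mpr hxt)),
    normalizer_eq_cen hM hR hv h2 hp hne (Subgroup.zpowers_le.mpr (mem_cen.mpr hxv))]

/-- An involution of `C(t)` centralises or inverts each element of odd prime order. -/
theorem conj_eq_inv_of_not_commute {t v x : G} (ht : orderOf t = 2) (hv : orderOf v = 2)
    (hx : (orderOf x).Prime) (hxo : Odd (orderOf x)) (hxt : x * t = t * x) (hvt : v * t = t * v)
    (hne : v * x ≠ x * v) : v * x * v⁻¹ = x⁻¹ := by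
  have hy := conj_mem_zpowers hM hR ht hxo hxt hvt
  obtain ⟨i, hi⟩ := Subgroup.mem_zpowers_iff.mp hy
  have hvv := (orderOf_two hv).1
  by_contra h
  have hw : x * (v * x * v⁻¹) ∈ Subgroup.zpowers x := mul_mem (Subgroup.mem_zpowers x) hy
  have hw1 : x * (v * x * v⁻¹) ≠ 1 := fun e => h (eq_inv_of_mul_eq_one_right e)
  have hc : v * (x * (v * x * v⁻¹)) = (x * (v * x * v⁻¹)) * v := by
    have e1 : x * (v * x * v⁻¹) = v * x * v⁻¹ * x := by
      rw [← hi]; exact ((Commute.refl x).zpow_right i).eq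
    have e2 : v⁻¹ = v := inv_eq_of_mul_eq_one_right hvv
    calc v * (x * (v * x * v⁻¹)) = v * x * v⁻¹ * (v * v) * x * v⁻¹ := by group
      _ = v * x * v⁻¹ * x * v⁻¹ := by rw [hvv, mul_one]
      _ = x * (v * x * v⁻¹) * v := by rw [← e1, e2]
  exact hne (commute_of_mem_zpowers' (mem_zpowers_of_mem_ne_one hx hw hw1) hc)

namespace Flip

variable {t x u : G} (hF : Flip t x u)
include hF

omit hM hR in
theorem x_ne : x ≠ 1 := fun e => hF.x_prime.ne_one (orderOf_eq_one_iff.mpr e)

omit hM hR in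
theorem u_ord : orderOf u = 2 := by
  obtain ⟨g, hg⟩ := isConj_iff.mp hF.u_conj
  rw [← hg]
  exact (orderOf_injective (MulAut.conj g).toMonoidHom (MulAut.conj g).injective t).trans hF.t_ord

theorem normalizer_x :
    Subgroup.normalizer ((Subgroup.zpowers x : Subgroup G) : Set G) = Cen t := by
  haveI := Fact.mk hF.x_prime
  exact normalizer_eq_cen hM hR hF.t_ord
    (fun e => by have := hF.x_odd; rw [e] at this; exact absurd this (by decide))
    (isPGroup_zpowers (p := orderOf x) (k := 1) (pow_one _).symm) (zpowers_ne_bot' hF.x_ne)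
    (Subgroup.zpowers_le.mpr (mem_cen.mpr hF.x_comm))

theorem comm_t {y : G} (hy : y * x = x * y) : y * t = t * y :=
  mem_cen.mp (hF.normalizer_x hM hR ▸ zpowers_le_normalizer_of_comm hy (Subgroup.mem_zpowers y))

theorem u_inv : u * x * u⁻¹ = x⁻¹ :=
  conj_eq_inv_of_not_commute hM hR hF.t_ord hF.u_ord hF.x_prime hF.x_odd hF.x_comm hF.u_comm
    hF.u_moves

theorem eq_t_of_commute {v : G} (hv : orderOf v = 2) (hvx : v * x = x * v) : v = t := by
  obtain ⟨g, hg⟩ := isConj_iff.mp hF.u_conj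
  have hvt := hF.comm_t hM hR hvx
  set x' := g * x * g⁻¹ with hx'
  have ho : orderOf x' = orderOf x :=
    orderOf_injective (MulAut.conj g).toMonoidHom (MulAut.conj g).injective x
  have hx'p : (orderOf x').Prime := ho ▸ hF.x_prime
  have hx'o : Odd (orderOf x') := ho ▸ hF.x_odd
  have hx'u : x' * u = u * x' := by
    rw [← hg, hx', show g * x * g⁻¹ * (g * t * g⁻¹) = g * (x * t) * g⁻¹ by group, hF.x_comm]
    group
  by_contra hne
  have hmove : ∀ w : G, orderOf w = 2 → w * x = x * w → w * x' * w⁻¹ = x'⁻¹ := by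
    intro w hw hwx
    have hwu : w * u = u * w := by
      have h1 := cen_eq_of_commute hM hR hF.t_ord hw hF.x_prime hF.x_odd hF.x_comm hwx.symm
      exact (mem_cen.mp (h1 ▸ mem_cen.mpr hF.u_comm)).symm
    refine conj_eq_inv_of_not_commute hM hR hF.u_ord hw hx'p hx'o hx'u hwu fun hwx' => ?_
    have h1 := cen_eq_of_commute hM hR hF.t_ord hw hF.x_prime hF.x_odd hF.x_comm hwx.symm
    have h2 := cen_eq_of_commute hM hR hF.u_ord hw hx'p hx'o hx'u hwx'.symm
    exact hF.u_moves (mem_cen.mp (h2 ▸ h1.symm ▸ mem_cen.mpr hF.x_comm : x ∈ Cen u)).symm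
  obtain ⟨hv2, hv1⟩ := orderOf_two hv
  obtain ⟨ht2, ht1⟩ := orderOf_two hF.t_ord
  have htv : orderOf (t * v) = 2 := by
    refine orderOf_eq_prime ?_ fun e => hne ?_
    · rw [sq, show t * v * (t * v) = t * (v * t) * v by group, hvt, ← mul_assoc, ht2, one_mul, hv2]
    · rw [← inv_eq_of_mul_eq_one_right e, inv_eq_of_mul_eq_one_right ht2]
  have e1 := hmove t hF.t_ord hF.x_comm.symm
  have e2 := hmove v hv hvx
  have e3 := hmove (t * v) htv
    (by rw [mul_assoc, hvx, ← mul_assoc, ← hF.x_comm, mul_assoc])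
  have e5 : x' * x' = 1 := by
    have e4 : t * v * x' * (t * v)⁻¹ = x' := by
      rw [show t * v * x' * (t * v)⁻¹ = t * (v * x' * v⁻¹) * t⁻¹ by group, e2, ← conj_inv, e1,
        inv_inv]
    rw [e3] at e4
    exact mul_eq_one_iff_eq_inv.mpr e4.symm
  exact hF.x_ne (by
    have := eq_one_of_odd_of_sq hx'o e5
    rwa [hx', conj_eq_one_iff] at this)

theorem inverts_odd {a : G} (ha : Odd (orderOf a)) (hat : a * t = t * a) :
    u * a * u⁻¹ = a⁻¹ := by
  have hy := conj_mem_zpowers hM hR hF.t_ord ha hat hF.u_comm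
  obtain ⟨i, hi⟩ := Subgroup.mem_zpowers_iff.mp hy
  have huu := (orderOf_two hF.u_ord).1
  by_contra h
  set w := a * (u * a * u⁻¹) with hw'
  have hw : w ∈ Subgroup.zpowers a := mul_mem (Subgroup.mem_zpowers a) hy
  have hw1 : w ≠ 1 := fun e => h (eq_inv_of_mul_eq_one_right e)
  have hc : u * w = w * u := by
    have e1 : a * (u * a * u⁻¹) = u * a * u⁻¹ * a := by
      rw [← hi]; exact ((Commute.refl a).zpow_right i).eq
    have e2 : u⁻¹ = u := inv_eq_of_mul_eq_one_right huu
    calc u * (a * (u * a * u⁻¹)) = u * a * u⁻¹ * (u * u) * a * u⁻¹ := by group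
      _ = u * a * u⁻¹ * a * u⁻¹ := by rw [huu, mul_one]
      _ = a * (u * a * u⁻¹) * u := by rw [← e1, e2]
  obtain ⟨r, hr, hr2, j, hj⟩ := exists_odd_prime_pow (odd_orderOf_of_mem_zpowers ha hw) hw1
  have hjo : Odd (orderOf (w ^ j)) := hj ▸ hr.odd_of_ne_two hr2
  have hjt : w ^ j * t = t * w ^ j :=
    ((show Commute w t from (commute_of_mem_zpowers' hw hat.symm).symm).pow_left j).eq
  have e := cen_eq_of_commute hM hR hF.t_ord hF.u_ord (hj ▸ hr) hjo hjt
    ((show Commute w u from hc.symm).pow_left j).eq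
  exact hF.u_moves (mem_cen.mp (e ▸ mem_cen.mpr hF.x_comm : x ∈ Cen u)).symm

/-- The odd part of `C(t)` is `<x>`. -/
theorem mem_zpowers_x {a : G} (ha : Odd (orderOf a)) (hat : a * t = t * a) :
    a ∈ Subgroup.zpowers x := by
  haveI : Fact (Nat.Prime 2) := ⟨Nat.prime_two⟩
  haveI := Fact.mk hF.x_prime
  have h2 : orderOf x ≠ 2 := fun e => by
    have := hF.x_odd; rw [e] at this; exact absurd this (by decide)
  have hX := isPGroup_zpowers (p := orderOf x) (k := 1) (y := x) (pow_one _).symm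
  have hn : Subgroup.zpowers u ≤
      Subgroup.normalizer ((Subgroup.zpowers x : Subgroup G) : Set G) := by
    rw [hF.normalizer_x hM hR]
    exact Subgroup.zpowers_le.mpr (mem_cen.mpr hF.u_comm)
  have hN := hM.normalizer_sup h2 hX
    (not_isSubnormal_pGroup hR hF.x_prime hX (zpowers_ne_bot' hF.x_ne))
    (isPGroup_zpowers (p := 2) (k := 1) (y := u) (by rw [hF.u_ord, pow_one])) hn
  rw [hF.normalizer_x hM hR] at hN
  have h1 := (Subgroup.mem_normalizer_iff.mp (hN.ge (mem_cen.mpr hat)) u).mp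
    (Subgroup.mem_sup_right (Subgroup.mem_zpowers u))
  have h3 : a * a ∈ Subgroup.zpowers x ⊔ Subgroup.zpowers u := by
    have h4 := mul_mem h1 (inv_mem
      (Subgroup.mem_sup_right (S := Subgroup.zpowers x) (Subgroup.mem_zpowers u)))
    rwa [show a * u * a⁻¹ * u⁻¹ = a * (u * a * u⁻¹)⁻¹ by group, hF.inverts_odd hM hR ha hat,
      inv_inv] at h4
  have h5 : a * a ∈ ((Subgroup.zpowers x ⊔ Subgroup.zpowers u : Subgroup G) : Set G) := h3
  rw [Subgroup.coe_mul_of_right_le_normalizer_left _ _ hn] at h5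
  obtain ⟨b, hb, c, hc, hbc⟩ := Set.mem_mul.mp h5
  obtain ⟨huu, -⟩ := orderOf_two hF.u_ord
  have hc' : c = 1 ∨ c = u := by
    obtain ⟨i, hi⟩ := Subgroup.mem_zpowers_iff.mp hc
    rcases Int.even_or_odd' i with ⟨j, rfl | rfl⟩
    · left; rw [← hi, zpow_mul, zpow_two, huu, one_zpow]
    · right; rw [← hi, zpow_add, zpow_mul, zpow_two, huu, one_zpow, one_mul, zpow_one]
  have hodd2 : Odd (orderOf (a * a)) :=
    ha.of_dvd_nat (by rw [← sq]; exact orderOf_pow_dvd 2)
  have h6 : a * a ∈ Subgroup.zpowers x := by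
    rcases hc' with rfl | rfl
    · rw [← hbc, mul_one]; exact hb
    · have hbx : Odd (orderOf b) := odd_orderOf_of_mem_zpowers hF.x_odd hb
      have hbt : b * t = t * b := (commute_of_mem_zpowers' hb hF.x_comm.symm).symm
      have hsq : b * c * (b * c) = 1 := by
        rw [show b * c * (b * c) = b * (c * b * c⁻¹) * (c * c) by group,
          hF.inverts_odd hM hR hbx hbt, mul_inv_cancel, huu, one_mul]
      rw [hbc] at hsq
      rw [eq_one_of_odd_of_sq hodd2 hsq]
      exact one_mem _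
  obtain ⟨m, hm⟩ := ha
  have : (a * a) ^ (m + 1) = a := by
    rw [← sq, ← pow_mul, show 2 * (m + 1) = orderOf a + 1 by omega, pow_succ, pow_orderOf_eq_one,
      one_mul]
  exact this ▸ pow_mem h6 _

omit hM hR in
theorem x_ne_inv : x⁻¹ ≠ x := fun e =>
  hF.x_ne (eq_one_of_odd_of_sq hF.x_odd (mul_eq_one_iff_eq_inv.mpr e.symm))

theorem exists_two_pow_commute {y : G} (hy : y * t = t * y) :
    ∃ k : ℕ, y ^ 2 ^ k * x = x * y ^ 2 ^ k := by
  obtain ⟨k, m, hm, he⟩ := Nat.exists_eq_two_pow_mul_odd (orderOf_pos y).ne'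
  refine ⟨k, (commute_of_mem_zpowers' (hF.mem_zpowers_x hM hR ?_
    ((show Commute y t from hy).pow_left _).eq) rfl).symm⟩
  rw [orderOf_pow_of_dvd (by positivity) (he ▸ dvd_mul_right _ _), he,
    Nat.mul_div_cancel_left _ (by positivity)]
  exact hm

theorem sq_one_of_inverts {s : G} (hst : s * t = t * s) (hsx : s * x * s⁻¹ = x⁻¹) : s * s = 1 := by
  obtain ⟨k, m, hm, he⟩ := Nat.exists_eq_two_pow_mul_odd (orderOf_pos s).ne'
  have hao : orderOf (s ^ 2 ^ k) = m := by
    rw [orderOf_pow_of_dvd (by positivity) (he ▸ dvd_mul_right _ _), he,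
      Nat.mul_div_cancel_left _ (by positivity)]
  obtain ⟨i, hi⟩ := Subgroup.mem_zpowers_iff.mp
    (hF.mem_zpowers_x hM hR (a := s ^ 2 ^ k) (by rw [hao]; exact hm)
      ((show Commute s t from hst).pow_left _).eq)
  have ha : s ^ 2 ^ k = 1 := by
    have h1 : s * s ^ 2 ^ k * s⁻¹ = s ^ 2 ^ k := by group
    rw [← hi, ← conj_zpow, hsx, inv_zpow] at h1
    rw [← hi]
    exact eq_one_of_odd_of_sq
      (odd_orderOf_of_mem_zpowers hF.x_odd (Subgroup.zpow_mem_zpowers x i))
      (mul_eq_one_iff_eq_inv.mpr h1.symm)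
  have hn : orderOf s = 2 ^ k := by
    rw [ha, orderOf_one] at hao
    rw [he, ← hao, mul_one]
  by_contra hne
  obtain ⟨j, rfl⟩ : ∃ j, k = j + 2 := by
    refine ⟨k - 2, ?_⟩
    by_contra hk
    rcases (show k = 0 ∨ k = 1 by omega) with rfl | rfl
    · rw [pow_zero, orderOf_eq_one_iff] at hn
      exact hne (by rw [hn, mul_one])
    · exact hne (orderOf_two (by simpa using hn)).1
  set q := s ^ 2 ^ (j + 1)
  have hq : orderOf q = 2 := by
    rw [orderOf_pow_of_dvd (by positivity) (hn ▸ pow_dvd_pow 2 (Nat.le_succ _)), hn,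
      Nat.pow_div (by omega) (by norm_num), show j + 2 - (j + 1) = 1 by omega, pow_one]
  have hss : s * s * x = x * (s * s) := by
    have h2 : s * (s * x * s⁻¹) * s⁻¹ = x := by rw [hsx, ← conj_inv, hsx, inv_inv]
    calc s * s * x = s * (s * x * s⁻¹) * s⁻¹ * (s * s) := by group
      _ = x * (s * s) := by rw [h2]
  have hqx : q * x = x * q := by
    have : q = (s * s) ^ 2 ^ j := by rw [← sq, ← pow_mul, ← pow_succ']
    rw [this]
    exact ((show Commute (s * s) x from hss).pow_left _).eq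
  have hqt := hF.eq_t_of_commute hM hR hq hqx
  have h3 := commute_of_mem_zpowers hM hR hF.t_ord hn
    (hqt ▸ Subgroup.npow_mem_zpowers s _) hF.x_odd hF.x_comm
  rw [h3, mul_inv_cancel_right] at hsx
  exact hF.x_ne_inv hsx.symm

theorem inverts_cen {y : G} (hy : y * x = x * y) : u * y * u⁻¹ = y⁻¹ := by
  have hyt := hF.comm_t hM hR hy
  have h1 : y * u * x * (y * u)⁻¹ = x⁻¹ := by
    rw [show y * u * x * (y * u)⁻¹ = y * (u * x * u⁻¹) * y⁻¹ by group, hF.u_inv hM hR, ← conj_inv,
      hy, mul_inv_cancel_right]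
  have h2 := hF.sq_one_of_inverts hM hR
    (by rw [mul_assoc, hF.u_comm, ← mul_assoc, hyt, mul_assoc]) h1
  rw [inv_eq_of_mul_eq_one_right (orderOf_two hF.u_ord).1]
  exact (inv_eq_of_mul_eq_one_right (by rw [← h2]; group)).symm

theorem cen_comm {a b : G} (ha : a * x = x * a) (hb : b * x = x * b) : a * b = b * a := by
  have h := hF.inverts_cen hM hR (y := a * b) (by rw [mul_assoc, hb, ← mul_assoc, ha, mul_assoc])
  rw [show u * (a * b) * u⁻¹ = u * a * u⁻¹ * (u * b * u⁻¹) by group, hF.inverts_cen hM hR ha,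
    hF.inverts_cen hM hR hb, ← mul_inv_rev] at h
  exact (inv_injective h).symm

theorem conj_mem_cen {s y : G} (hs : s * t = t * s) (hy : y * x = x * y) :
    s * y * s⁻¹ * x = x * (s * y * s⁻¹) := by
  have h := conj_mem_zpowers hM hR hF.t_ord hF.x_odd hF.x_comm
    (g := s⁻¹) (show Commute s t from hs).inv_left.eq
  rw [inv_inv] at h
  have h1 := commute_of_mem_zpowers' h hy
  calc s * y * s⁻¹ * x = s * (y * (s⁻¹ * x * s)) * s⁻¹ := by group
    _ = x * (s * y * s⁻¹) := by rw [h1]; group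

theorem commute_or_inverts {q : G} (hq : q * t = t * q) (h2 : q * q * x = x * (q * q)) :
    q * x = x * q ∨ q * x * q⁻¹ = x⁻¹ := by
  obtain ⟨i, hi⟩ := Subgroup.mem_zpowers_iff.mp
    (conj_mem_zpowers hM hR hF.t_ord hF.x_odd hF.x_comm hq)
  have h3 : x ^ (i * i) = x := by
    rw [zpow_mul, hi, conj_zpow, hi]
    calc q * (q * x * q⁻¹) * q⁻¹ = q * q * x * (q * q)⁻¹ := by group
      _ = x := by rw [h2, mul_inv_cancel_right]
  have h4 : ((orderOf x : ℕ) : ℤ) ∣ (i - 1) * (i + 1) := by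
    rw [orderOf_dvd_iff_zpow_eq_one, show (i - 1) * (i + 1) = i * i - 1 by ring, zpow_sub, h3,
      zpow_one, mul_inv_cancel]
  rcases (Nat.prime_iff_prime_int.mp hF.x_prime).dvd_or_dvd h4 with h | h <;>
    rw [orderOf_dvd_iff_zpow_eq_one] at h
  · left
    rw [zpow_sub, zpow_one, mul_inv_eq_one, hi] at h
    exact mul_inv_eq_iff_eq_mul.mp h
  · right
    rw [zpow_add, zpow_one, hi] at h
    exact eq_inv_of_mul_eq_one_left h

/-- Either `C(t) = C(x) ∪ u C(x)`, or some element squares to one inverting `x`. -/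
theorem list_or_quarter {y : G} (hy : y * t = t * y) :
    (y * x = x * y ∨ u * y * x = x * (u * y)) ∨
      ∃ s : G, s * t = t * s ∧ s * s * x * (s * s)⁻¹ = x⁻¹ ∧
        ∃ n : ℕ, s ∈ Subgroup.zpowers (y ^ n) := by
  obtain ⟨k, hk⟩ := hF.exists_two_pow_commute hM hR hy
  induction k with
  | zero => left; left; simpa using hk
  | succ k ih =>
    have hyk : y ^ 2 ^ k * t = t * y ^ 2 ^ k := ((show Commute y t from hy).pow_left _).eq
    rcases hF.commute_or_inverts hM hR hyk (by rw [← pow_add, ← two_mul, ← pow_succ']; exact hk)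
      with h | h
    · exact ih h
    · rcases k with - | j
      · rw [pow_zero, pow_one] at h
        left; right
        have h' : y * x = x⁻¹ * y := mul_inv_eq_iff_eq_mul.mp h
        have hu : u * x⁻¹ * u⁻¹ = x := by rw [← conj_inv, hF.u_inv hM hR, inv_inv]
        rw [mul_assoc, h', ← mul_assoc, mul_inv_eq_iff_eq_mul.mp hu, mul_assoc]
      · right
        refine ⟨y ^ 2 ^ j, ((show Commute y t from hy).pow_left _).eq, ?_, 2 ^ j,
          Subgroup.mem_zpowers _⟩
        rw [← pow_add, ← two_mul, ← pow_succ']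
        exact h

theorem eq_one_or_t_of_quarter {s y : G} {k : ℕ} (hs : s * t = t * s)
    (hs2 : s * s * x * (s * s)⁻¹ = x⁻¹) (hy : orderOf y = 2 ^ k) (hyx : y * x = x * y) :
    y = 1 ∨ y = t := by
  rcases k with - | - | j
  · left; exact orderOf_eq_one_iff.mp (by simpa using hy)
  · right; exact hF.eq_t_of_commute hM hR (by simpa using hy) hyx
  exfalso
  set q := y ^ 2 ^ j
  have hqx : q * x = x * q := ((show Commute y x from hyx).pow_left _).eq
  have hq4 : orderOf q = 4 := by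
    rw [orderOf_pow_of_dvd (by positivity) (hy ▸ pow_dvd_pow 2 (by omega)), hy,
      Nat.pow_div (by omega) (by norm_num), show j + 1 + 1 - j = 2 by omega]
  have hqq : q * q = t := by
    refine hF.eq_t_of_commute hM hR ?_ (by rw [mul_assoc, hqx, ← mul_assoc, hqx, mul_assoc])
    rw [← sq, orderOf_pow_of_dvd two_ne_zero (by rw [hq4]; norm_num), hq4]
  obtain ⟨ht2, ht1⟩ := orderOf_two hF.t_ord
  set q' := s * q * s⁻¹ with hq'
  have hq'x := hF.conj_mem_cen hM hR hs hqx
  have hcc : (q' * q⁻¹) * (q' * q⁻¹) = 1 := by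
    have hc := hF.cen_comm hM hR hq'x hqx
    have hc' : Commute q' q⁻¹ := (show Commute q' q from hc).inv_right
    rw [show q' * q⁻¹ * (q' * q⁻¹) = q' * (q⁻¹ * q') * q⁻¹ by group, ← hc'.eq,
      show q' * (q' * q⁻¹) * q⁻¹ = q' * q' * (q * q)⁻¹ by group, hqq, hq',
      show s * q * s⁻¹ * (s * q * s⁻¹) = s * (q * q) * s⁻¹ by group, hqq, hs,
      mul_inv_cancel_right, mul_inv_cancel]
  have hsq' : s * q' * s⁻¹ = q := by
    by_cases h1 : q' * q⁻¹ = 1
    · have e : q' = q := mul_inv_eq_one.mp h1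
      rw [e, ← hq', e]
    · have h2 := hF.eq_t_of_commute hM hR (v := q' * q⁻¹)
        (orderOf_eq_prime (by rw [sq, hcc]) h1) (by
          rw [mul_assoc, (show Commute q x from hqx).inv_left.eq, ← mul_assoc, hq'x, mul_assoc])
      have e : q' = t * q := mul_inv_eq_iff_eq_mul.mp h2
      rw [e, show s * (t * q) * s⁻¹ = (s * t * s⁻¹) * (s * q * s⁻¹) by group, hs,
        mul_inv_cancel_right, ← hq', e, ← mul_assoc, ht2, one_mul]
  have hw : u⁻¹ * (s * s) * x = x * (u⁻¹ * (s * s)) := by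
    have hu : u⁻¹ * x⁻¹ * u = x := by
      rw [← hF.u_inv hM hR]; group
    calc u⁻¹ * (s * s) * x = u⁻¹ * (s * s * x * (s * s)⁻¹) * u * (u⁻¹ * (s * s)) := by group
      _ = x * (u⁻¹ * (s * s)) := by rw [hs2, hu]
  have h5 : s * q' * s⁻¹ = q⁻¹ := by
    rw [show s * q' * s⁻¹ = u * ((u⁻¹ * (s * s)) * q * (u⁻¹ * (s * s))⁻¹) * u⁻¹ by
      rw [hq']; group, hF.cen_comm hM hR hw hqx, mul_inv_cancel_right, hF.inverts_cen hM hR hqx]
  rw [hsq'] at h5
  exact ht1 (by rw [← hqq]; exact mul_eq_one_iff_eq_inv.mpr h5)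

/-- A `2`-subgroup of `C(t)` meeting `C(x)` in `<t>` is cyclic modulo `<t>`. -/
theorem exists_generator {P : Subgroup G} (hP : P ≤ Cen t)
    (hPx : ∀ y ∈ P, y * x = x * y → y = 1 ∨ y = t) :
    ∃ s ∈ P, ∀ y ∈ P, ∃ k : ℤ, y = s ^ k ∨ y = s ^ k * t := by
  haveI := Fact.mk hF.x_prime
  haveI : Fact (Nat.card (Subgroup.zpowers x)).Prime := ⟨by rw [Nat.card_zpowers]; exact hF.x_prime⟩
  have hPn : P ≤ Subgroup.normalizer ((Subgroup.zpowers x : Subgroup G) : Set G) :=
    hP.trans (hF.normalizer_x hM hR).ge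
  let f : P →* MulAut (Subgroup.zpowers x) :=
    (Subgroup.zpowers x).normalizerMonoidHom.comp (Subgroup.inclusion hPn)
  haveI : IsCyclic (MulAut (Subgroup.zpowers x)) :=
    isCyclic_of_surjective
      (IsCyclic.mulAutMulEquiv (G := Subgroup.zpowers x)).symm.toMonoidHom
      (IsCyclic.mulAutMulEquiv (G := Subgroup.zpowers x)).symm.surjective
  haveI : IsCyclic f.range := inferInstance
  obtain ⟨⟨_, s, rfl⟩, hg⟩ := IsCyclic.exists_generator (α := f.range)
  refine ⟨s, s.2, fun y hy => ?_⟩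
  obtain ⟨k, hk⟩ := Subgroup.mem_zpowers_iff.mp (hg ⟨f ⟨y, hy⟩, ⟨y, hy⟩, rfl⟩)
  refine ⟨k, ?_⟩
  have hk' : f (s ^ k) = f ⟨y, hy⟩ := by
    rw [map_zpow]; exact congrArg Subtype.val hk
  have hker : f ((s ^ k)⁻¹ * ⟨y, hy⟩) = 1 := by rw [map_mul, map_inv, hk', inv_mul_cancel]
  have h1 : Subgroup.inclusion hPn ((s ^ k)⁻¹ * ⟨y, hy⟩) ∈
      (Subgroup.zpowers x).normalizerMonoidHom.ker := hker
  rw [Subgroup.normalizerMonoidHom_ker] at h1
  have h2 := Subgroup.mem_centralizer_iff.mp (Subgroup.mem_subgroupOf.mp h1) x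
    (Subgroup.mem_zpowers x)
  rcases hPx _ ((s ^ k)⁻¹ * ⟨y, hy⟩ : P).2 h2.symm with h | h
  · left
    have h3 := inv_mul_eq_one.mp h
    simpa using h3.symm
  · right
    have h3 : ((s : G) ^ k)⁻¹ * y = t := by simpa using h
    exact inv_mul_eq_iff_eq_mul.mp h3

end Flip

end

end CfsgLib.MaxNorm
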