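import Cfsg.Agent.MaxNorm.Basic

/-!
Centralisers of involutions in groups with maximal normalisers of biprimary subgroups.
-/

set_option autoImplicit false
set_option linter.style.haveILetI false
set_option linter.unusedSectionVars false

namespace CfsgLib.MaxNorm

open Subgroup

variable {G : Type*} [Group G] [Finite G]

/-- The centraliser of an element. -/
abbrev Cen {G : Type*} [Group G] (t : G) : Subgroup G := Subgroup.centralizer ({t} : Set G)

omit [Finite G] in
theorem mem_cen {t g : G} : g ∈ Cen t ↔ g * t = t * g := Subgroup.mem_centralizer_singleton_iff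

omit [Finite G] in
theorem isPGroup_zpowers {p k : ℕ} [Fact p.Prime] {y : G} (hy : orderOf y = p ^ k) :
    IsPGroup p (Subgroup.zpowers y) :=
  IsPGroup.of_card (n := k) (by rw [Nat.card_zpowers, hy])

omit [Finite G] in
theorem zpowers_ne_bot' {y : G} (hy : y ≠ 1) : Subgroup.zpowers y ≠ ⊥ := by
  simpa [Subgroup.zpowers_eq_bot] using hy

omit [Finite G] in
theorem orderOf_two {v : G} (hv : orderOf v = 2) : v * v = 1 ∧ v ≠ 1 := by
  refine ⟨?_, fun h => by simp [h] at hv⟩
  rw [← sq, ← hv, pow_orderOf_eq_one]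

theorem exists_odd_prime_pow {a : G} (ha : Odd (orderOf a)) (ha1 : a ≠ 1) :
    ∃ r : ℕ, r.Prime ∧ r ≠ 2 ∧ ∃ i : ℕ, orderOf (a ^ i) = r := by
  have hn1 : orderOf a ≠ 1 := fun h => ha1 (orderOf_eq_one_iff.mp h)
  refine ⟨_, Nat.minFac_prime hn1, fun h2 => ?_, orderOf a / (orderOf a).minFac, ?_⟩
  · exact Nat.not_even_iff_odd.mpr ha (even_iff_two_dvd.mpr (h2 ▸ Nat.minFac_dvd _))
  · exact orderOf_pow_orderOf_div (orderOf_pos a).ne' (Nat.minFac_dvd _)

theorem eq_of_involutions_mem_zpowers {s t t' : G} (ht : orderOf t = 2) (ht' : orderOf t' = 2)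
    (hs : t ∈ Subgroup.zpowers s) (hs' : t' ∈ Subgroup.zpowers s) : t' = t := by
  classical
  have key : ∀ v : G, orderOf v = 2 → v ∈ Subgroup.zpowers s → v = s ^ (orderOf s / 2) := by
    intro v hv hvs
    rw [← mem_powers_iff_mem_zpowers, mem_powers_iff_mem_range_orderOf, Finset.mem_image] at hvs
    obtain ⟨i, hi, rfl⟩ := hvs
    rw [Finset.mem_range] at hi
    obtain ⟨h2, h1⟩ := orderOf_two hv
    rw [← pow_add] at h2
    obtain ⟨c, hc⟩ := orderOf_dvd_of_pow_eq_one h2
    have hi0 : i ≠ 0 := by rintro rfl; simp at h1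
    have hc1 : c = 1 := by
      rcases Nat.lt_or_ge c 2 with h | h
      · rcases Nat.eq_zero_or_pos c with rfl | h'
        · omega
        · omega
      · nlinarith
    subst hc1
    congr 1
    omega
  rw [key t ht hs, key t' ht' hs']

section

variable (hM : MaxNormalizers G) (hR : NoSolvNormal G)
include hM hR

theorem isCoatom_normalizer {p : ℕ} (hp : p.Prime) {Q : Subgroup G} (hQ : IsPGroup p Q)
    (hne : Q ≠ ⊥) : IsCoatom (Subgroup.normalizer (Q : Set G)) :=
  hM Q (not_isSubnormal_pGroup hR hp hQ hne) (biprimary_of_isPGroup hp hQ)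

theorem normalizer_eq_of_le_pGroup {p q : ℕ} (hp : p.Prime) (hq : q.Prime) {H Q : Subgroup G}
    (hH : IsPGroup p H) (hH1 : H ≠ ⊥) (hQ : IsPGroup q Q) (hQ1 : Q ≠ ⊥)
    (hle : Subgroup.normalizer (H : Set G) ≤ Subgroup.normalizer (Q : Set G)) :
    Subgroup.normalizer (H : Set G) = Subgroup.normalizer (Q : Set G) :=
  hM.normalizer_eq_of_le (not_isSubnormal_pGroup hR hp hH hH1) (biprimary_of_isPGroup hp hH)
    (not_isSubnormal_pGroup hR hq hQ hQ1) hle

omit hM hR in
theorem normalizer_zpowers_involution {t : G} (ht : orderOf t = 2) :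
    Subgroup.normalizer ((Subgroup.zpowers t : Subgroup G) : Set G) = Cen t := by
  refine le_antisymm (fun g hg => ?_) (fun g hg => ?_)
  · have h := (Subgroup.mem_normalizer_iff.mp hg t).mp (Subgroup.mem_zpowers t)
    have h2 := eq_of_involutions_mem_zpowers ht
      ((orderOf_injective (MulAut.conj g).toMonoidHom (MulAut.conj g).injective t).trans ht)
      (Subgroup.mem_zpowers t) h
    exact mem_cen.mpr (mul_inv_eq_iff_eq_mul.mp h2)
  · exact zpowers_le_normalizer_of_comm (mem_cen.mp hg) (Subgroup.mem_zpowers g)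

theorem isCoatom_cen {t : G} (ht : orderOf t = 2) : IsCoatom (Cen t) := by
  haveI : Fact (Nat.Prime 2) := ⟨Nat.prime_two⟩
  rw [← normalizer_zpowers_involution ht]
  exact isCoatom_normalizer hM hR Nat.prime_two
    (isPGroup_zpowers (p := 2) (k := 1) (by rw [ht, pow_one]))
    (zpowers_ne_bot' (orderOf_two ht).2)

theorem normalizer_cen {t : G} (ht : orderOf t = 2) :
    Subgroup.normalizer ((Cen t : Subgroup G) : Set G) = Cen t := by
  haveI : Fact (Nat.Prime 2) := ⟨Nat.prime_two⟩
  rcases (isCoatom_cen hM hR ht).le_iff.mp Subgroup.le_normalizer with h | h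
  · exfalso
    refine not_isSubnormal_pGroup hR Nat.prime_two
      (isPGroup_zpowers (p := 2) (k := 1) (by rw [ht, pow_one]))
      (zpowers_ne_bot' (orderOf_two ht).2) ?_
    have hle : Subgroup.zpowers t ≤ Cen t := Subgroup.zpowers_le.mpr (mem_cen.mpr rfl)
    exact Subgroup.IsSubnormal.step _ _ hle (Subgroup.normalizer_eq_top_iff.mp h).isSubnormal
      (Subgroup.normal_subgroupOf_of_le_normalizer (normalizer_zpowers_involution ht).ge)
  · exact h

/-- The conjugates of an involution with the same centraliser are equal. -/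
theorem conj_eq_of_cen_eq {t g : G} (ht : orderOf t = 2) (h : Cen (g * t * g⁻¹) = Cen t) :
    g * t * g⁻¹ = t := by
  have hg : g ∈ Cen t := by
    rw [← normalizer_cen hM hR ht]
    refine Subgroup.mem_normalizer_iff.mpr fun a => ?_
    conv_rhs => rw [← h]
    simp only [mem_cen]
    exact ⟨fun e => by rw [show g * a * g⁻¹ * (g * t * g⁻¹) = g * (a * t) * g⁻¹ by group, e]; group,
      fun e => by
        have := congrArg (fun y => g⁻¹ * y * g) e
        simpa [mul_assoc] using this⟩
  rw [mem_cen.mp hg, mul_inv_cancel_right]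

theorem normalizer_eq_cen {t : G} (ht : orderOf t = 2) {r : ℕ} [Fact r.Prime] (hr : r ≠ 2)
    {X : Subgroup G} (hX : IsPGroup r X) (hne : X ≠ ⊥) (hXt : X ≤ Cen t) :
    Subgroup.normalizer (X : Set G) = Cen t := by
  haveI : Fact (Nat.Prime 2) := ⟨Nat.prime_two⟩
  have hT := isPGroup_zpowers (p := 2) (k := 1) (y := t) (by rw [ht, pow_one])
  have hn : X ≤ Subgroup.normalizer ((Subgroup.zpowers t : Subgroup G) : Set G) :=
    hXt.trans (normalizer_zpowers_involution ht).ge
  have hn' : Subgroup.zpowers t ≤ Subgroup.normalizer (X : Set G) :=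
    Subgroup.zpowers_le.mpr (Subgroup.mem_normalizer_iff.mpr fun a => by
      refine ⟨fun ha => ?_, fun ha => ?_⟩
      · rwa [← mem_cen.mp (hXt ha), mul_inv_cancel_right]
      · have h := mem_cen.mp (hXt ha)
        have h' : t * a * t⁻¹ = a := by
          calc t * a * t⁻¹ = t⁻¹ * (t * (t * a * t⁻¹)) := by group
            _ = t⁻¹ * ((t * a * t⁻¹) * t) := by rw [h]
            _ = a := by group
        rwa [h'] at ha)
  have h1 := hM.normalizer_sup (Ne.symm hr) hT
    (not_isSubnormal_pGroup hR Nat.prime_two hT (zpowers_ne_bot' (orderOf_two ht).2))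
    hX hn
  have h2 := normalizer_sup_le hr hX hT hn'
  rw [sup_comm, h1, normalizer_zpowers_involution ht] at h2
  rcases (isCoatom_cen hM hR ht).le_iff.mp h2 with h | h
  · exact absurd h (ne_top_normalizer (not_isSubnormal_pGroup hR Fact.out hX hne))
  · exact h

theorem conj_mem_zpowers {t a g : G} (ht : orderOf t = 2) (ha : Odd (orderOf a))
    (hat : a * t = t * a) (hgt : g * t = t * g) : g * a * g⁻¹ ∈ Subgroup.zpowers a := by
  suffices H : ∀ n : ℕ, ∀ b : G, orderOf b = n → Odd n → b * t = t * b →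
      g * b * g⁻¹ ∈ Subgroup.zpowers b from H _ a rfl ha hat
  intro n
  induction n using Nat.recOnPrimeCoprime with
  | zero => intro b _ hn; exact absurd hn (by decide)
  | prime_pow p k hp =>
    intro b hb hn hbt
    haveI := Fact.mk hp
    by_cases hb1 : b = 1
    · subst hb1; simp
    have hk : k ≠ 0 := by
      rintro rfl
      exact hb1 (orderOf_eq_one_iff.mp (by simpa using hb))
    have hp2 : p ≠ 2 := by
      rintro rfl
      exact absurd hn (Nat.not_odd_iff_even.mpr ((Nat.even_pow).mpr ⟨even_two, hk⟩))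
    have hN := normalizer_eq_cen hM hR ht hp2 (isPGroup_zpowers hb) (zpowers_ne_bot' hb1)
      (Subgroup.zpowers_le.mpr (mem_cen.mpr hbt))
    exact (Subgroup.mem_normalizer_iff.mp (hN.ge (mem_cen.mpr hgt)) b).mp (Subgroup.mem_zpowers b)
  | coprime m k hm hk hco ihm ihk =>
    intro b hb hn hbt
    have hpos : 0 < m * k := by positivity
    have h1 : orderOf (b ^ k) = m := by
      rw [orderOf_pow' b (by omega), hb, Nat.gcd_eq_right (Dvd.intro_left m rfl),
        Nat.mul_div_cancel _ (by omega)]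
    have h2 : orderOf (b ^ m) = k := by
      rw [orderOf_pow' b (by omega), hb, Nat.gcd_eq_right (Dvd.intro k rfl),
        Nat.mul_div_cancel_left _ (by omega)]
    have hn' := Nat.odd_mul.mp hn
    have e1 := ihm (b ^ k) h1 hn'.1 ((show Commute b t from hbt).pow_left k).eq
    have e2 := ihk (b ^ m) h2 hn'.2 ((show Commute b t from hbt).pow_left m).eq
    have l1 : ∀ j : ℕ, Subgroup.zpowers (b ^ j) ≤ Subgroup.zpowers b := fun j =>
      Subgroup.zpowers_le.mpr (Subgroup.npow_mem_zpowers b j)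
    have hb' : b = (b ^ k) ^ (Nat.gcdA k m) * (b ^ m) ^ (Nat.gcdB k m) := by
      rw [← zpow_natCast b k, ← zpow_natCast b m, ← zpow_mul, ← zpow_mul, ← zpow_add,
        ← Nat.gcd_eq_gcd_ab, (Nat.Coprime.symm hco).gcd_eq_one]
      simp
    rw [show g * b * g⁻¹ =
        (g * (b ^ k) ^ (Nat.gcdA k m) * g⁻¹) * (g * (b ^ m) ^ (Nat.gcdB k m) * g⁻¹) by
      conv_lhs => rw [hb']
      group, ← conj_zpow, ← conj_zpow]
    exact mul_mem (zpow_mem (l1 k e1) _) (zpow_mem (l1 m e2) _)

/-- A `2`-element with the involution `t` among its powers centralises the odd elements of `C(t)`. -/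
theorem commute_of_mem_zpowers {t s a : G} {k : ℕ} (ht : orderOf t = 2) (hs : orderOf s = 2 ^ k)
    (hts : t ∈ Subgroup.zpowers s) (ha : Odd (orderOf a)) (hat : a * t = t * a) :
    s * a = a * s := by
  haveI : Fact (Nat.Prime 2) := ⟨Nat.prime_two⟩
  have hs1 : s ≠ 1 := by
    rintro rfl
    have := (orderOf_two ht).2
    simp at hts
    exact this hts
  have hle : Subgroup.normalizer ((Subgroup.zpowers s : Subgroup G) : Set G) ≤
      Subgroup.normalizer ((Subgroup.zpowers t : Subgroup G) : Set G) := by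
    rw [normalizer_zpowers_involution ht]
    intro g hg
    have h := (Subgroup.mem_normalizer_iff.mp hg t).mp hts
    have h2 := eq_of_involutions_mem_zpowers ht
      ((orderOf_injective (MulAut.conj g).toMonoidHom (MulAut.conj g).injective t).trans ht) hts h
    exact mem_cen.mpr (mul_inv_eq_iff_eq_mul.mp h2)
  have hN := normalizer_eq_of_le_pGroup hM hR Nat.prime_two Nat.prime_two (isPGroup_zpowers hs)
    (zpowers_ne_bot' hs1) (isPGroup_zpowers (p := 2) (k := 1) (by rw [ht, pow_one]))
    (zpowers_ne_bot' (orderOf_two ht).2) hle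
  rw [normalizer_zpowers_involution ht] at hN
  have h1 := (Subgroup.mem_normalizer_iff.mp (hN.ge (mem_cen.mpr hat)) s).mp
    (Subgroup.mem_zpowers s)
  have hst : s * t = t * s := by
    obtain ⟨i, hi⟩ := Subgroup.mem_zpowers_iff.mp hts
    rw [← hi]
    exact ((Commute.refl s).zpow_right i).eq
  have h2 := conj_mem_zpowers hM hR ht ha hat hst
  have c1 : s * a * s⁻¹ * a⁻¹ ∈ Subgroup.zpowers a := mul_mem h2 (inv_mem (Subgroup.mem_zpowers a))
  have c2 : s * a * s⁻¹ * a⁻¹ ∈ Subgroup.zpowers s := by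
    have h4 := mul_mem (Subgroup.mem_zpowers s) (inv_mem h1)
    rwa [show s * (a * s * a⁻¹)⁻¹ = s * a * s⁻¹ * a⁻¹ by group] at h4
  have hco : Nat.Coprime (orderOf s) (orderOf a) := by
    rw [hs]
    exact Nat.Coprime.pow_left k (Nat.coprime_two_left.mpr ha)
  have h3 : orderOf (s * a * s⁻¹ * a⁻¹) = 1 :=
    Nat.eq_one_of_dvd_coprimes hco (orderOf_dvd_of_mem_zpowers c2) (orderOf_dvd_of_mem_zpowers c1)
  rw [orderOf_eq_one_iff] at h3
  exact mul_inv_eq_iff_eq_mul.mp (mul_inv_eq_one.mp h3)

end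

end CfsgLib.MaxNorm
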