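import Cfsg.Agent.MaxNorm.Basic

/-!
Dihedral subgroups in groups with maximal normalisers: `D_{2n}` forces `n` to be tiny.
-/

set_option autoImplicit false

namespace CfsgLib.MaxNorm

open DihedralGroup

/-- Reduction of the indices of a dihedral group. -/
def dihedralCast {n m : ℕ} (h : m ∣ n) : DihedralGroup n →* DihedralGroup m where
  toFun x := match x with
    | r i => r (ZMod.castHom h (ZMod m) i)
    | sr i => sr (ZMod.castHom h (ZMod m) i)
  map_one' := by
    show r (ZMod.castHom h (ZMod m) 0) = 1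
    rw [map_zero]; rfl
  map_mul' x y := by cases x <;> cases y <;> simp [map_add, map_sub]

theorem dihedralCast_r {n m : ℕ} (h : m ∣ n) (i : ZMod n) :
    dihedralCast h (r i) = r (ZMod.castHom h (ZMod m) i) := rfl

theorem dihedralCast_sr {n m : ℕ} (h : m ∣ n) (i : ZMod n) :
    dihedralCast h (sr i) = sr (ZMod.castHom h (ZMod m) i) := rfl

/-- Preimage of the reflection subgroup under reduction. -/
def coarse {n m : ℕ} (h : m ∣ n) : Subgroup (DihedralGroup n) :=
  (Subgroup.zpowers (sr (0 : ZMod m))).comap (dihedralCast h)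

theorem mem_coarse {n m : ℕ} (h : m ∣ n) {x : DihedralGroup n} (hx : x ∈ coarse h) :
    dihedralCast h x = 1 ∨ dihedralCast h x = sr 0 := by
  obtain ⟨k, hk⟩ := Subgroup.mem_zpowers_iff.mp (Subgroup.mem_comap.mp hx)
  rw [← hk]
  rcases Int.even_or_odd k with ⟨j, rfl⟩ | ⟨j, rfl⟩
  · left
    rw [zpow_add, ← (Commute.refl (sr (0 : ZMod m))).mul_zpow,
      show sr (0 : ZMod m) * sr 0 = 1 from sr_mul_self 0, one_zpow]
  · right
    rw [zpow_add_one, show 2 * j = j + j by ring, zpow_add,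
      ← (Commute.refl (sr (0 : ZMod m))).mul_zpow,
      show sr (0 : ZMod m) * sr 0 = 1 from sr_mul_self 0, one_zpow, one_mul]

theorem dvd_two_of_conj_mem {n m : ℕ} (h : m ∣ n)
    (hc : r (1 : ZMod n) * sr 0 * (r 1)⁻¹ ∈ coarse h) : m ∣ 2 := by
  have e : dihedralCast h (r (1 : ZMod n) * sr 0 * (r 1)⁻¹) = sr ((-2 : ℤ) : ZMod m) := by
    rw [show r (1 : ZMod n) * sr 0 * (r 1)⁻¹ = sr (-2) by
      simp only [inv_r, r_mul_sr, sr_mul_r]; congr 1; ring, dihedralCast_sr, map_neg, map_ofNat]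
    norm_num
  rcases mem_coarse h hc with h1 | h1
  · rw [e] at h1
    exact absurd h1 (by rw [one_def]; exact nofun)
  · rw [e] at h1
    have h2 : ((-2 : ℤ) : ZMod m) = 0 := by
      injection h1
    rw [ZMod.intCast_zmod_eq_zero_iff_dvd, Int.dvd_neg] at h2
    exact_mod_cast h2

variable {G : Type*} [Group G] [Finite G]

omit [Finite G] in
theorem isPGroup_zpowers_of_orderOf_eq {p k : ℕ} {x : G} (h : orderOf x = p ^ k) :
    IsPGroup p (Subgroup.zpowers x) :=
  IsPGroup.of_card (n := k) (by rw [Nat.card_zpowers, h])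

theorem orderOf_rot {n d m : ℕ} [NeZero n] (hn : n = d * m) :
    orderOf (r ((m : ℕ) : ZMod n) : DihedralGroup n) = d := by
  have hm : 0 < m := Nat.pos_of_ne_zero fun h => NeZero.ne n (by simp [hn, h])
  rw [orderOf_r]
  by_cases hd : d = 1
  · subst hd
    rw [one_mul] at hn
    rw [← hn, ZMod.natCast_self, ZMod.val_zero, Nat.gcd_zero_right, Nat.div_self (NeZero.pos n)]
  · have hlt : m < n := by
      rw [hn]
      have hd2 : 2 ≤ d := by
        rcases Nat.lt_or_ge d 2 with h | h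
        · interval_cases d
          · exact absurd (by simpa using hn) (NeZero.ne n)
          · omega
        · exact h
      calc m < 2 * m := by omega
        _ ≤ d * m := Nat.mul_le_mul_right m hd2
    rw [ZMod.val_natCast_of_lt hlt, Nat.gcd_eq_right (hn ▸ dvd_mul_left m d), hn,
      Nat.mul_div_cancel _ hm]

/-- An odd prime `ℓ ∣ n` in a dihedral subgroup `D_{2n}` gives `n ∣ 2 ℓ`. -/
theorem MaxNormalizers.dihedral_odd (hM : MaxNormalizers G) (hR : NoSolvNormal G) {n : ℕ} [NeZero n]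
    (f : DihedralGroup n →* G) (hf : Function.Injective f) {ℓ : ℕ} [Fact ℓ.Prime] (hl2 : ℓ ≠ 2)
    (hl : ℓ ∣ n) : n ∣ 2 * ℓ := by
  obtain ⟨m, hm⟩ := hl
  have hmn : m ∣ n := ⟨ℓ, by rw [hm, mul_comm]⟩
  haveI : Fact (Nat.Prime 2) := ⟨Nat.prime_two⟩
  set ρ : DihedralGroup n := r ((m : ℕ) : ZMod n)
  set X := Subgroup.zpowers (f ρ)
  set U := Subgroup.zpowers (f (sr 0))
  have hρ : orderOf (f ρ) = ℓ ^ 1 := by rw [orderOf_injective f hf, pow_one, orderOf_rot hm]
  have hu : orderOf (f (sr 0)) = 2 ^ 1 := by rw [orderOf_injective f hf, pow_one, orderOf_sr]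
  have hX : IsPGroup ℓ X := isPGroup_zpowers_of_orderOf_eq hρ
  have hXne : X ≠ ⊥ := fun h => (Fact.out : ℓ.Prime).ne_one (by
    rw [← pow_one ℓ, ← hρ, orderOf_eq_one_iff]; exact Subgroup.zpowers_eq_bot.mp h)
  have hXs := not_isSubnormal_pGroup hR Fact.out hX hXne
  have hUX : U ≤ Subgroup.normalizer (X : Set G) := by
    refine Subgroup.zpowers_le.mpr (Subgroup.mem_normalizer_iff_map_conj_eq.mpr ?_)
    rw [MonoidHom.map_zpowers]
    show Subgroup.zpowers (f (sr 0) * f ρ * (f (sr 0))⁻¹) = _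
    rw [← map_mul, ← map_inv, ← map_mul, show sr (0 : ZMod n) * ρ * (sr 0)⁻¹ = ρ⁻¹ by
      simp [ρ, inv_sr, inv_r, sr_mul_r, sr_mul_sr], map_inv, Subgroup.zpowers_inv]
  have heq := hM.normalizer_sup hl2 hX hXs (isPGroup_zpowers_of_orderOf_eq hu) hUX
  have h1 : f (r 1) ∈ Subgroup.normalizer ((X ⊔ U : Subgroup G) : Set G) := by
    rw [heq]
    refine zpowers_le_normalizer_of_comm ?_ (Subgroup.mem_zpowers _)
    rw [← map_mul, ← map_mul]
    simp [ρ, add_comm]
  have hsub : X ⊔ U ≤ (coarse hmn).map f := by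
    refine sup_le (Subgroup.zpowers_le.mpr ⟨ρ, ?_, rfl⟩) (Subgroup.zpowers_le.mpr ⟨sr 0, ?_, rfl⟩)
    · show dihedralCast hmn ρ ∈ Subgroup.zpowers (sr 0)
      rw [dihedralCast_r, map_natCast, ZMod.natCast_self]
      exact one_mem _
    · show dihedralCast hmn (sr 0) ∈ Subgroup.zpowers (sr 0)
      rw [dihedralCast_sr, map_zero]
      exact Subgroup.mem_zpowers _
  have h2 := hsub ((Subgroup.mem_normalizer_iff.mp h1 (f (sr 0))).mp
    (Subgroup.mem_sup_right (Subgroup.mem_zpowers _)))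
  rw [← map_mul, ← map_inv, ← map_mul, Subgroup.mem_map_iff_mem hf] at h2
  rw [hm, mul_comm 2 ℓ]
  exact Nat.mul_dvd_mul_left ℓ (dvd_two_of_conj_mem hmn h2)

/-- `4 ∣ n` in a dihedral subgroup `D_{2n}` gives `n ∣ 8`. -/
theorem MaxNormalizers.dihedral_four (hM : MaxNormalizers G) (hR : NoSolvNormal G) {n : ℕ} [NeZero n]
    (f : DihedralGroup n →* G) (hf : Function.Injective f) (h4 : 4 ∣ n) : n ∣ 8 := by
  obtain ⟨m, hm⟩ := h4
  have hmn : m ∣ n := ⟨4, by rw [hm, mul_comm]⟩
  haveI : Fact (Nat.Prime 2) := ⟨Nat.prime_two⟩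
  set ρ : DihedralGroup n := r ((m : ℕ) : ZMod n)
  set σ : DihedralGroup n := r ((2 * m : ℕ) : ZMod n)
  set H := Subgroup.zpowers (f ρ) ⊔ Subgroup.zpowers (f (sr 0))
  set Z := Subgroup.zpowers (f σ)
  have hρ : orderOf (f ρ) = 2 ^ 2 := by rw [orderOf_injective f hf, orderOf_rot hm]; norm_num
  have hσ : orderOf (f σ) = 2 ^ 1 := by
    rw [orderOf_injective f hf, orderOf_rot (d := 2) (m := 2 * m) (by omega)]; norm_num
  have hu : orderOf (f (sr 0)) = 2 ^ 1 := by rw [orderOf_injective f hf, pow_one, orderOf_sr]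
  have hUρ : Subgroup.zpowers (f (sr 0)) ≤
      Subgroup.normalizer (Subgroup.zpowers (f ρ) : Set G) := by
    refine Subgroup.zpowers_le.mpr (Subgroup.mem_normalizer_iff_map_conj_eq.mpr ?_)
    rw [MonoidHom.map_zpowers]
    show Subgroup.zpowers (f (sr 0) * f ρ * (f (sr 0))⁻¹) = _
    rw [← map_mul, ← map_inv, ← map_mul, show sr (0 : ZMod n) * ρ * (sr 0)⁻¹ = ρ⁻¹ by
      simp [ρ, inv_sr, inv_r, sr_mul_r, sr_mul_sr], map_inv, Subgroup.zpowers_inv]
  have hH : IsPGroup 2 H := (isPGroup_zpowers_of_orderOf_eq hρ).to_sup_of_normal_left'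
    (isPGroup_zpowers_of_orderOf_eq hu) hUρ
  have hHne : H ≠ ⊥ := fun h => by
    have h1 : f (sr 0) ∈ H := Subgroup.mem_sup_right (Subgroup.mem_zpowers _)
    rw [h, Subgroup.mem_bot] at h1
    rw [h1, orderOf_one] at hu
    norm_num at hu
  have hZne : Z ≠ ⊥ := fun h => by
    rw [Subgroup.zpowers_eq_bot.mp h, orderOf_one] at hσ
    norm_num at hσ
  have hsub : H ≤ (coarse hmn).map f := by
    refine sup_le (Subgroup.zpowers_le.mpr ⟨ρ, ?_, rfl⟩) (Subgroup.zpowers_le.mpr ⟨sr 0, ?_, rfl⟩)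
    · show dihedralCast hmn ρ ∈ Subgroup.zpowers (sr 0)
      rw [dihedralCast_r, map_natCast, ZMod.natCast_self]
      exact one_mem _
    · show dihedralCast hmn (sr 0) ∈ Subgroup.zpowers (sr 0)
      rw [dihedralCast_sr, map_zero]
      exact Subgroup.mem_zpowers _
  have hsq : ∀ h ∈ H, h ^ 2 ∈ Z := by
    intro h hh
    obtain ⟨x, hx, rfl⟩ := hsub hh
    rw [← map_pow]
    have key : x ^ 2 ∈ Subgroup.zpowers σ := by
      cases x with
      | sr i => rw [sq, sr_mul_self]; exact one_mem _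
      | r i =>
        rcases mem_coarse hmn hx with h1 | h1
        · rw [dihedralCast_r, one_def] at h1
          injection h1 with h2
          rw [← ZMod.natCast_zmod_val i, map_natCast, ZMod.natCast_eq_zero_iff] at h2
          obtain ⟨c, hc⟩ := h2
          refine Subgroup.mem_zpowers_iff.mpr ⟨(c : ℤ), ?_⟩
          rw [zpow_natCast, r_pow, r_pow, ← ZMod.natCast_zmod_val i, hc]
          congr 1
          push_cast
          ring
        · rw [dihedralCast_r] at h1
          exact absurd h1 nofun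
    obtain ⟨k, hk⟩ := Subgroup.mem_zpowers_iff.mp key
    exact Subgroup.mem_zpowers_iff.mpr ⟨k, by rw [← hk, map_zpow]⟩
  have hle : Subgroup.normalizer (H : Set G) ≤ Subgroup.normalizer (Z : Set G) := by
    intro g hg
    refine Subgroup.mem_normalizer_iff_map_conj_eq.mpr ?_
    rw [MonoidHom.map_zpowers]
    refine Subgroup.eq_of_le_of_card_ge (Subgroup.zpowers_le.mpr ?_) ?_
    · show g * f σ * g⁻¹ ∈ Z
      rw [show f σ = f ρ ^ 2 by
        rw [← map_pow, r_pow]; congr 1; simp [σ, mul_comm], ← conj_pow]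
      exact hsq _ ((Subgroup.mem_normalizer_iff.mp hg _).mp
        (Subgroup.mem_sup_left (Subgroup.mem_zpowers _)))
    · rw [Nat.card_zpowers, Nat.card_zpowers]
      exact (orderOf_injective (MulAut.conj g).toMonoidHom (MulAut.conj g).injective _).symm.le
  have heq := hM.normalizer_eq_of_le (not_isSubnormal_pGroup hR Nat.prime_two hH hHne)
    (biprimary_of_isPGroup Nat.prime_two hH)
    (not_isSubnormal_pGroup hR Nat.prime_two (isPGroup_zpowers_of_orderOf_eq hσ) hZne) hle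
  have h1 : f (r 1) ∈ Subgroup.normalizer (H : Set G) := by
    rw [heq]
    refine zpowers_le_normalizer_of_comm ?_ (Subgroup.mem_zpowers _)
    rw [← map_mul, ← map_mul]
    simp [σ, add_comm]
  have h2 := hsub ((Subgroup.mem_normalizer_iff.mp h1 (f (sr 0))).mp
    (Subgroup.mem_sup_right (Subgroup.mem_zpowers _)))
  rw [← map_mul, ← map_inv, ← map_mul, Subgroup.mem_map_iff_mem hf] at h2
  rw [hm]
  exact Nat.mul_dvd_mul_left 4 (dvd_two_of_conj_mem hmn h2)

end CfsgLib.MaxNorm
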